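import Cfsg.Agent.Lib.Involution.Basic
import Mathlib.GroupTheory.Index
import Mathlib.GroupTheory.SpecificGroups.Cyclic

/-!
Groups in which every involution centraliser is abelian: the structure around a Sylow 2-subgroup.
-/

set_option autoImplicit false

namespace Cfsg.Agent.Lib.AbelianInvCent

open Subgroup Cfsg.Agent.Lib.Involution

variable {G : Type*} [Group G]

/-- The hypothesis. -/
structure AbCent [Finite G] (S : Sylow 2 G) : Prop where
  nc : ¬ IsCyclic (S : Subgroup G)
  nn : ¬ (S : Subgroup G).Normal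
  hC : ∀ t : G, orderOf t = 2 → IsMulCommutative (centralizer ({t} : Set G))

variable [Finite G] {S : Sylow 2 G}

local notation "A" => centralizer ((S : Subgroup G) : Set G)
local notation "N" => normalizer ((S : Subgroup G) : Set G)

lemma exists_involution_in {P : Subgroup G} (hP : IsPGroup 2 P) (hne : P ≠ ⊥) :
    ∃ t ∈ P, orderOf t = 2 := by
  have : Fact (Nat.Prime 2) := ⟨Nat.prime_two⟩
  obtain ⟨k, hk⟩ := hP.exists_card_eq
  have h2 : 2 ∣ Nat.card P := by
    rcases k with _ | k
    · exact absurd (eq_bot_of_card_eq _ (by simpa using hk)) hne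
    · exact hk ▸ dvd_pow_self 2 (Nat.succ_ne_zero k)
  obtain ⟨t, ht⟩ := exists_prime_orderOf_dvd_card' (G := P) 2 h2
  exact ⟨t, t.2, by rw [orderOf_coe]; exact ht⟩

lemma conj_mem_centralizer {g x a : G} (ha : a ∈ centralizer ({x} : Set G)) :
    g * a * g⁻¹ ∈ centralizer ({g * x * g⁻¹} : Set G) := by
  rw [mem_centralizer_singleton_iff] at ha ⊢
  calc g * a * g⁻¹ * (g * x * g⁻¹) = g * (a * x) * g⁻¹ := by group
    _ = g * x * g⁻¹ * (g * a * g⁻¹) := by rw [ha]; group

lemma mem_S_of_involution {t : G} (ht : orderOf t = 2) (htN : t ∈ N) :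
    t ∈ (S : Subgroup G) := by
  have : Fact (Nat.Prime 2) := ⟨Nat.prime_two⟩
  have h2 : IsPGroup 2 (zpowers t) := IsPGroup.of_card (n := 1) (by rw [Nat.card_zpowers, ht, pow_one])
  have := S.is_maximal' (IsPGroup.to_sup_of_normal_left' S.isPGroup' h2 (zpowers_le.mpr htN)) le_sup_left
  rw [← this]
  exact mem_sup_right (mem_zpowers t)

lemma A_le_N : A ≤ N := fun a ha => by
  rw [mem_normalizer_iff]
  intro x
  constructor
  · intro hx
    have := mem_centralizer_iff.mp ha x hx
    rwa [← this, mul_inv_cancel_right]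
  · intro hx
    have := mem_centralizer_iff.mp ha _ hx
    have e : a * x * a⁻¹ = x := by
      have h2 : a * x = a * (a * x * a⁻¹) := by
        rw [← this]; group
      exact (mul_left_cancel h2).symm
    rwa [e] at hx

lemma conj_A {g a : G} (hg : g ∈ N) (ha : a ∈ A) : g * a * g⁻¹ ∈ A := by
  rw [mem_centralizer_iff]
  intro x hx
  have h1 : g⁻¹ * x * g ∈ (S : Subgroup G) := by
    have := (mem_normalizer_iff.mp hg (g⁻¹ * x * g)).mpr (by
      rw [show g * (g⁻¹ * x * g) * g⁻¹ = x by group]; exact hx)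
    exact this
  have h2 := mem_centralizer_iff.mp ha _ h1
  calc x * (g * a * g⁻¹) = g * (g⁻¹ * x * g * a) * g⁻¹ := by group
    _ = g * a * g⁻¹ * x := by rw [h2]; group

lemma conj_S {g x : G} (hg : g ∈ N) (hx : x ∈ (S : Subgroup G)) : g * x * g⁻¹ ∈ (S : Subgroup G) :=
  (mem_normalizer_iff.mp hg x).mp hx

lemma exists_conj_mem_S {v : G} (hv : orderOf v = 2) : ∃ g : G, g * v * g⁻¹ ∈ (S : Subgroup G) := by
  have : Fact (Nat.Prime 2) := ⟨Nat.prime_two⟩
  have h2 : IsPGroup 2 (zpowers v) := IsPGroup.of_card (n := 1) (by rw [Nat.card_zpowers, hv, pow_one])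
  obtain ⟨Q, hQ⟩ := h2.exists_le_sylow
  obtain ⟨g, hg⟩ := MulAction.exists_smul_eq G Q S
  refine ⟨g, ?_⟩
  rw [← hg, Sylow.coe_subgroup_smul]
  exact ⟨v, hQ (mem_zpowers v), rfl⟩

namespace AbCent

variable (h : AbCent S)
include h

lemma S_ne_bot : (S : Subgroup G) ≠ ⊥ := fun he => h.nc (by rw [he]; infer_instance)

lemma commC {t a b : G} (ht : orderOf t = 2) (ha : a ∈ centralizer ({t} : Set G))
    (hb : b ∈ centralizer ({t} : Set G)) : a * b = b * a :=
  congrArg Subtype.val ((h.hC t ht).is_comm.comm ⟨a, ha⟩ ⟨b, hb⟩)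

lemma exists_t0 : ∃ t ∈ (S : Subgroup G), orderOf t = 2 :=
  exists_involution_in S.isPGroup' h.S_ne_bot

lemma commS {a b : G} (ha : a ∈ (S : Subgroup G)) (hb : b ∈ (S : Subgroup G)) : a * b = b * a := by
  have : Fact (Nat.Prime 2) := ⟨Nat.prime_two⟩
  have : Nontrivial (S : Subgroup G) := (nontrivial_iff_ne_bot _).mpr h.S_ne_bot
  have hc := S.isPGroup'.center_nontrivial
  obtain ⟨t, htc, ht⟩ := exists_involution_in (G := (S : Subgroup G))
    (S.isPGroup'.to_subgroup (center (S : Subgroup G))) ((nontrivial_iff_ne_bot _).mp hc)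
  have hto : orderOf (t : G) = 2 := by rw [orderOf_coe]; exact ht
  have hmem : ∀ x ∈ (S : Subgroup G), x ∈ centralizer ({(t : G)} : Set G) := fun x hx =>
    mem_centralizer_singleton_iff.mpr (congrArg Subtype.val (mem_center_iff.mp htc ⟨x, hx⟩))
  exact h.commC hto (hmem a ha) (hmem b hb)

lemma S_le_A : (S : Subgroup G) ≤ A := fun x hx => mem_centralizer_iff.mpr fun y hy => h.commS hy hx

lemma cent_eq {t : G} (ht : orderOf t = 2) (htS : t ∈ (S : Subgroup G)) :
    centralizer ({t} : Set G) = A := by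
  refine le_antisymm (fun a ha => mem_centralizer_iff.mpr fun x hx => ?_) (fun a ha => ?_)
  · exact h.commC ht (mem_centralizer_singleton_iff.mpr (h.commS hx htS)) ha
  · exact mem_centralizer_singleton_iff.mpr (mem_centralizer_iff.mp ha t htS).symm

lemma commA {a b : G} (ha : a ∈ A) (hb : b ∈ A) : a * b = b * a := by
  obtain ⟨t, htS, ht⟩ := h.exists_t0
  rw [← h.cent_eq ht htS] at ha hb
  exact h.commC ht ha hb

lemma two_power_mem_S {a : G} (ha : a ∈ A) {k : ℕ} (hk : a ^ 2 ^ k = 1) : a ∈ (S : Subgroup G) := by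
  have : Fact (Nat.Prime 2) := ⟨Nat.prime_two⟩
  have hp : IsPGroup 2 (zpowers a) := fun x => by
    obtain ⟨m, hm⟩ := mem_zpowers_iff.mp x.2
    refine ⟨k, Subtype.ext ?_⟩
    rw [Subgroup.coe_pow, ← hm, ← zpow_natCast, ← zpow_mul, mul_comm, zpow_mul, zpow_natCast, hk,
      one_zpow, Subgroup.coe_one]
  have := S.is_maximal' (IsPGroup.to_sup_of_normal_left' S.isPGroup' hp
    (zpowers_le.mpr (A_le_N ha))) le_sup_left
  rw [← this]
  exact mem_sup_right (mem_zpowers a)

lemma involution_mem_S {a : G} (ha : a ∈ A) (h2 : orderOf a = 2) : a ∈ (S : Subgroup G) :=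
  mem_S_of_involution h2 (A_le_N ha)

lemma N_ne_top : N ≠ ⊤ := fun ht => h.nn (normalizer_eq_top_iff.mp ht)

lemma se_mem {t g : G} (ht : orderOf t = 2) (htS : t ∈ (S : Subgroup G))
    (hg : g * t * g⁻¹ ∈ (S : Subgroup G)) : g ∈ N := by
  have hgt : orderOf (g * t * g⁻¹) = 2 := (orderOf_conj g t).trans ht
  have key : ∀ x ∈ (S : Subgroup G), g * x * g⁻¹ ∈ (S : Subgroup G) := by
    intro x hx
    have hA : g * x * g⁻¹ ∈ A := by
      rw [← h.cent_eq hgt hg]
      refine conj_mem_centralizer ?_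
      rw [h.cent_eq ht htS]
      exact h.S_le_A hx
    obtain ⟨k, hk⟩ := S.isPGroup' ⟨x, hx⟩
    refine h.two_power_mem_S hA (k := k) ?_
    rw [conj_pow, show x ^ 2 ^ k = 1 from congrArg Subtype.val hk, mul_one, mul_inv_cancel]
  have heq : (S : Subgroup G).map (MulAut.conj g).toMonoidHom = (S : Subgroup G) :=
    eq_of_le_of_card_ge (map_le_iff_le_comap.mpr fun x hx => key x hx)
      (Nat.card_congr ((S : Subgroup G).equivMapOfInjective _ (MulAut.conj g).injective).toEquiv).le
  rw [mem_normalizer_iff]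
  intro x
  refine ⟨key x, fun hx => ?_⟩
  rw [← heq] at hx
  obtain ⟨y, hy, hxy⟩ := hx
  have : y = x := mul_left_cancel (mul_right_cancel (show g * y * g⁻¹ = g * x * g⁻¹ from hxy))
  rwa [← this]

lemma cent_le_N {t g : G} (ht : orderOf t = 2) (htS : t ∈ (S : Subgroup G)) (hg : g * t = t * g) :
    g ∈ N :=
  h.se_mem ht htS (by rwa [hg, mul_inv_cancel_right])

lemma exists_outside : ∃ u : G, orderOf u = 2 ∧ u ∉ N := by
  by_contra hall
  push Not at hall
  obtain ⟨t, htS, ht⟩ := h.exists_t0
  refine h.N_ne_top (top_le_iff.mp fun g _ => h.se_mem ht htS ?_)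
  exact mem_S_of_involution ((orderOf_conj g t).trans ht) (hall _ ((orderOf_conj g t).trans ht))

lemma all_conj {a b : G} (ha : orderOf a = 2) (hb : orderOf b = 2) : IsConj a b := by
  obtain ⟨u, hu, huN⟩ := h.exists_outside
  suffices key : ∀ c : G, orderOf c = 2 → c ∈ (S : Subgroup G) → IsConj c u by
    have key' : ∀ c : G, orderOf c = 2 → IsConj c u := fun c hc => by
      obtain ⟨g, hg⟩ := exists_conj_mem_S (S := S) hc
      exact (isConj_iff.mpr ⟨g, rfl⟩ : IsConj c (g * c * g⁻¹)).trans
        (key _ ((orderOf_conj g c).trans hc) hg)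
    exact (key' a ha).trans (key' b hb).symm
  intro c hc hcS
  by_contra hnc
  obtain ⟨w, hw, -, hwc, hwu⟩ := exists_involution_commute hc hu
    (fun hodd => hnc (isConj_of_odd hc hu hodd))
  have hwS : w ∈ (S : Subgroup G) := mem_S_of_involution hw (h.cent_le_N hc hcS hwc)
  exact huN (h.cent_le_N hw hwS hwu.symm)

lemma conj_in_N {a b : G} (ha : orderOf a = 2) (hb : orderOf b = 2) (haS : a ∈ (S : Subgroup G))
    (hbS : b ∈ (S : Subgroup G)) : ∃ k ∈ N, k * a * k⁻¹ = b := by
  obtain ⟨g, hg⟩ := isConj_iff.mp (h.all_conj ha hb)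
  exact ⟨g, h.se_mem ha haS (hg ▸ hbS), hg⟩

lemma exists_move {v : G} (hv : orderOf v = 2) : ∃ g : G, g * v * g⁻¹ ∈ (S : Subgroup G) :=
  exists_conj_mem_S hv

lemma exists_inv_of_even {a : G} (he : Even (orderOf a)) : orderOf (a ^ (orderOf a / 2)) = 2 :=
  orderOf_pow_orderOf_div (orderOf_pos a).ne' he.two_dvd

/-- An element of `A` inverted by an involution outside `N` is trivial. -/
lemma inverted_eq_one {a u : G} (ha : a ∈ A) (hu : orderOf u = 2) (huN : u ∉ N)
    (hinv : u * a * u = a⁻¹) : a = 1 := by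
  have hodd : Odd (orderOf a) := by
    by_contra he
    rw [Nat.not_odd_iff_even] at he
    set z := a ^ (orderOf a / 2) with hz
    have hz2 : orderOf z = 2 := h.exists_inv_of_even he
    have hzS := h.involution_mem_S (pow_mem ha _) hz2
    refine huN (h.cent_le_N hz2 hzS ?_)
    have e : u * z * u = z := by
      have : u * z * u = (a⁻¹) ^ (orderOf a / 2) := by
        have := conj_pow (i := orderOf a / 2) (a := u) (b := a)
        rw [inv_self hu, hinv] at this
        exact this.symm
      rw [this, inv_pow, ← hz, inv_self hz2]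
    calc u * z = u * z * (u * u) := by rw [mul_self hu, mul_one]
      _ = z * u := by rw [← mul_assoc, e]
  by_contra hne
  -- `S ∪ {u}` lies in the extended centraliser of `a`, in which the centraliser has odd index
  let M := centralizer ({a} : Set G)
  have hSM : (S : Subgroup G) ≤ M := fun x hx =>
    mem_centralizer_singleton_iff.mpr (mem_centralizer_iff.mp ha x hx)
  have huM : u ∉ M := by
    intro hm
    rw [mem_centralizer_singleton_iff] at hm
    rw [hm, mul_assoc, mul_self hu, mul_one] at hinv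
    exact hne (eq_one_of_mul_self_of_odd hodd (mul_eq_one_iff_eq_inv.mpr hinv))
  have hnorm : u ∈ normalizer (M : Set G) := by
    have hmap : ∀ x, x ∈ M → u * x * u ∈ M := by
      intro x hx
      have := conj_mem_centralizer (g := u) hx
      rw [inv_self hu, hinv, mem_centralizer_singleton_iff] at this
      rw [mem_centralizer_singleton_iff]
      calc u * x * u * a = a * (a⁻¹ * (u * x * u)) * a := by group
        _ = a * (u * x * u) := by rw [← this]; group
    rw [mem_normalizer_iff, inv_self hu]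
    refine fun x => ⟨hmap x, fun hx => ?_⟩
    have h3 := hmap _ hx
    rwa [show u * (u * x * u) * u = u * u * x * (u * u) by group, mul_self hu, one_mul, mul_one] at h3
  have hle : M ⊔ zpowers u ≤ normalizer (M : Set G) := sup_le M.le_normalizer (zpowers_le.mpr hnorm)
  haveI : (M.subgroupOf (M ⊔ zpowers u)).Normal :=
    normal_subgroupOf_of_le_normalizer hle
  set q := QuotientGroup.mk' (M.subgroupOf (M ⊔ zpowers u))
  set u' : ↥(M ⊔ zpowers u) := ⟨u, mem_sup_right (mem_zpowers u)⟩
  have h1 : q u' ≠ 1 := fun e => huM (mem_subgroupOf.mp ((QuotientGroup.eq_one_iff u').mp e))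
  have h2 : q u' * q u' = 1 := by
    rw [← map_mul, show u' * u' = 1 from Subtype.ext (mul_self hu), map_one]
  have h3 : 2 ∣ (M.subgroupOf (M ⊔ zpowers u)).index := by
    rw [Subgroup.index_eq_card, ← orderOf_two_of h2 h1]
    exact orderOf_dvd_natCard _
  have : Fact (Nat.Prime 2) := ⟨Nat.prime_two⟩
  refine S.not_dvd_index (h3.trans ?_)
  show M.relIndex (M ⊔ zpowers u) ∣ _
  exact (Subgroup.relIndex_dvd_of_le_left _ hSM).trans
    (Dvd.intro _ (relIndex_mul_index (hSM.trans le_sup_left)))

/-- An element of `A` inverted by an involution commutes with it. -/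
lemma inverted_commute {a u : G} (ha : a ∈ A) (hu : orderOf u = 2) (hinv : u * a * u = a⁻¹) :
    u * a = a * u := by
  by_cases huN : u ∈ N
  · exact h.commA (h.S_le_A (mem_S_of_involution hu huN)) ha
  · rw [h.inverted_eq_one ha hu huN hinv, mul_one, one_mul]

lemma mem_A_of_stab {k t : G} (ht : orderOf t = 2) (htS : t ∈ (S : Subgroup G))
    (hk : k * t * k⁻¹ = t) : k ∈ A := by
  rw [← h.cent_eq ht htS, mem_centralizer_singleton_iff]
  exact (mul_inv_eq_iff_eq_mul.mp hk)

/-- Every coset `gA` outside `N` contains an involution. -/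
theorem coset_involution {g : G} (hg : g ∉ N) :
    ∃ v : G, orderOf v = 2 ∧ v ∉ N ∧ g⁻¹ * v ∈ A := by
  classical
  obtain ⟨t, htS, ht⟩ := h.exists_t0
  let I := {v : G // orderOf v = 2}
  have hk : ∀ v : I, (v : G) ∈ N → ∃ k ∈ N, k * t * k⁻¹ = (v : G) := fun v hv =>
    h.conj_in_N ht v.2 htS (mem_S_of_involution v.2 hv)
  let Φ : I → G ⧸ (A) := fun v =>
    if hv : (v : G) ∈ N then QuotientGroup.mk (Classical.choose (hk v hv)) else QuotientGroup.mk (v : G)
  have hinj : Function.Injective Φ := by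
    intro v w hvw
    by_cases hv : (v : G) ∈ N <;> by_cases hw : (w : G) ∈ N
    · simp only [Φ, dif_pos hv, dif_pos hw, QuotientGroup.eq] at hvw
      obtain ⟨-, e1⟩ := Classical.choose_spec (hk v hv)
      obtain ⟨-, e2⟩ := Classical.choose_spec (hk w hw)
      generalize Classical.choose (hk v hv) = k at hvw e1
      generalize Classical.choose (hk w hw) = l at hvw e2
      have hm := hvw
      rw [← h.cent_eq ht htS, mem_centralizer_singleton_iff] at hm
      refine Subtype.ext ?_
      rw [← e1, ← e2]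
      calc k * t * k⁻¹ = k * (t * (k⁻¹ * l)) * l⁻¹ := by group
        _ = l * t * l⁻¹ := by rw [← hm]; group
    · simp only [Φ, dif_pos hv, dif_neg hw, QuotientGroup.eq] at hvw
      obtain ⟨hkN, -⟩ := Classical.choose_spec (hk v hv)
      exact absurd ((N).mul_mem hkN (A_le_N hvw)) (by simpa using hw)
    · simp only [Φ, dif_neg hv, dif_pos hw, QuotientGroup.eq] at hvw
      obtain ⟨hkN, -⟩ := Classical.choose_spec (hk w hw)
      have := (N).mul_mem hkN ((N).inv_mem (A_le_N hvw))
      exact absurd (by simpa using this) hv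
    · simp only [Φ, dif_neg hv, dif_neg hw, QuotientGroup.eq, inv_self v.2] at hvw
      have hinv : (v : G) * ((v : G) * w) * v = ((v : G) * w)⁻¹ := by
        have := conj_prod v.2 w.2
        rwa [inv_self v.2] at this
      have := h.inverted_eq_one hvw v.2 hv hinv
      exact Subtype.ext ((mul_eq_one_iff_eq_inv.mp this).trans (inv_self w.2))
  have hcard : Nat.card (G ⧸ (A)) ≤ Nat.card I := by
    let ψ : G ⧸ (A) → I := fun c => Quotient.liftOn' c
      (fun x => (⟨x * t * x⁻¹, (orderOf_conj x t).trans ht⟩ : I)) (by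
        intro a b hab
        rw [QuotientGroup.leftRel_apply, ← h.cent_eq ht htS, mem_centralizer_singleton_iff] at hab
        refine Subtype.ext ?_
        show a * t * a⁻¹ = b * t * b⁻¹
        calc a * t * a⁻¹ = a * (t * (a⁻¹ * b)) * b⁻¹ := by group
          _ = b * t * b⁻¹ := by rw [← hab]; group)
    refine Nat.card_le_card_of_injective ψ ?_
    intro p q
    induction p using Quotient.inductionOn' with
    | _ a =>
    induction q using Quotient.inductionOn' with
    | _ b =>
    intro hab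
    replace hab : a * t * a⁻¹ = b * t * b⁻¹ := congrArg Subtype.val hab
    rw [Quotient.eq'', QuotientGroup.leftRel_apply]
    refine h.mem_A_of_stab ht htS ?_
    calc a⁻¹ * b * t * (a⁻¹ * b)⁻¹ = a⁻¹ * (b * t * b⁻¹) * a := by group
      _ = t := by rw [← hab]; group
  obtain ⟨v, hv⟩ := (hinj.bijective_of_nat_card_le hcard).2 (QuotientGroup.mk g)
  have hvN : (v : G) ∉ N := by
    intro hvN
    simp only [Φ, dif_pos hvN, QuotientGroup.eq] at hv
    obtain ⟨hkN, -⟩ := Classical.choose_spec (hk v hvN)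
    exact hg (by simpa using (N).mul_mem hkN (A_le_N hv))
  refine ⟨v, v.2, hvN, ?_⟩
  simp only [Φ, dif_neg hvN, QuotientGroup.eq] at hv
  simpa using (A).inv_mem hv

end AbCent

end Cfsg.Agent.Lib.AbelianInvCent
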