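import Cfsg.Agent.Lib.AbelianInvCent.Local
import Cfsg.Agent.Lib.Involution.Exceptional
import Cfsg.Agent.Lib.UniqueInvolution

/-!
Exceptional characters force the abelian subgroup `A` to be an elementary abelian 2-group.
-/

set_option autoImplicit false

namespace Cfsg.Agent.Lib.AbelianInvCent

open Subgroup Cfsg Cfsg.Agent.Lib.Involution Cfsg.Agent.Lib.Char Cfsg.Agent.Lib.CharTools
open scoped ComplexConjugate

universe u

/-- The final arithmetic contradiction. -/
lemma numeric {a n s d c : ℕ} (hn : 0 < n) (ha : (c + 2) * (c + 2) ≤ a) (h1 : a ≤ s * (c + 1) + 1)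
    (h2 : s * (d * d) ≤ n * a) (h3 : n ≤ d * c) (h4 : (c + 1) * (a + 1) ≤ n) : False := by
  obtain ⟨b, rfl⟩ : ∃ b, a = b + 1 := ⟨a - 1, by have : 0 < a := by nlinarith
                                                 omega⟩
  have hb : b ≤ s * (c + 1) := by omega
  have h5 : b * (n * n) ≤ (c + 1) * (n * (b + 1)) * (c * c) := by
    calc b * (n * n) ≤ s * (c + 1) * ((d * c) * (d * c)) :=
          Nat.mul_le_mul hb (Nat.mul_le_mul h3 h3)
      _ = (c + 1) * (s * (d * d)) * (c * c) := by ring
      _ ≤ (c + 1) * (n * (b + 1)) * (c * c) := by gcongr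
  have h6 : b * n ≤ (c + 1) * (b + 1) * (c * c) := by
    refine (Nat.mul_le_mul_left_iff hn).mp ?_
    calc n * (b * n) = b * (n * n) := by ring
      _ ≤ (c + 1) * (n * (b + 1)) * (c * c) := h5
      _ = n * ((c + 1) * (b + 1) * (c * c)) := by ring
  have h7 : (c + 1) * (b * (b + 2)) ≤ (c + 1) * ((b + 1) * (c * c)) := by
    calc (c + 1) * (b * (b + 2)) = b * ((c + 1) * (b + 1 + 1)) := by ring
      _ ≤ b * n := Nat.mul_le_mul_left _ h4
      _ ≤ (c + 1) * (b + 1) * (c * c) := h6
      _ = (c + 1) * ((b + 1) * (c * c)) := by ring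
  have h8 := Nat.le_of_mul_le_mul_left h7 (Nat.succ_pos c)
  nlinarith

variable {G : Type u} [Group G] [Finite G] {S : Sylow 2 G}

local notation "A" => centralizer ((S : Subgroup G) : Set G)
local notation "N" => normalizer ((S : Subgroup G) : Set G)

/-- Conjugation by an element of `N` on `A`. -/
def cj (x : N) : ↥(A) →* ↥(A) where
  toFun a := ⟨(x : G) * a * (x : G)⁻¹, conj_A x.2 a.2⟩
  map_one' := Subtype.ext (by simp)
  map_mul' a b := Subtype.ext (by simp [mul_assoc])

@[simp] lemma cj_coe (x : N) (a : ↥(A)) : (cj x a : G) = (x : G) * a * (x : G)⁻¹ := rfl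

lemma cj_mul (x y : N) : cj (S := S) (x * y) = (cj x).comp (cj y) := by
  refine MonoidHom.ext fun a => Subtype.ext ?_
  simp only [MonoidHom.comp_apply, cj_coe, Subgroup.coe_mul, mul_inv_rev, mul_assoc]

lemma cj_one : cj (S := S) 1 = MonoidHom.id _ := by
  refine MonoidHom.ext fun a => Subtype.ext ?_
  simp only [cj_coe, OneMemClass.coe_one, inv_one, mul_one, one_mul, MonoidHom.id_apply]

namespace AbCent

variable (h : AbCent S)
include h

lemma cj_of_mem {x : N} (hx : (x : G) ∈ A) : cj (S := S) x = MonoidHom.id _ := by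
  refine MonoidHom.ext fun a => Subtype.ext ?_
  rw [cj_coe, h.commA hx a.2, mul_inv_cancel_right]; rfl

variable (hloc : ∀ b ∈ centralizer ((S : Subgroup G) : Set G), b ≠ 1 →
  centralizer ({b} : Set G) ≤ normalizer ((S : Subgroup G) : Set G))
include hloc

lemma free {x : N} {l : ↥(A) →* ℂˣ} (hl : l ≠ 1) (he : l.comp (cj x) = l) : (x : G) ∈ A := by
  by_contra hx
  apply hl
  let φ : ↥(A) → ↥(A) := fun a => a⁻¹ * cj x a
  have hφ : Function.Injective φ := by
    intro a b hab
    have e : (a : G)⁻¹ * ((x : G) * a * (x : G)⁻¹) = (b : G)⁻¹ * ((x : G) * b * (x : G)⁻¹) :=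
      congrArg Subtype.val hab
    by_contra hne
    refine hx (h.cent_le_A hloc ((A).mul_mem b.2 ((A).inv_mem a.2))
      (fun e1 => hne (Subtype.ext (mul_inv_eq_one.mp e1).symm)) ?_)
    calc (x : G) * ((b : G) * (a : G)⁻¹)
        = (b : G) * ((b : G)⁻¹ * ((x : G) * b * (x : G)⁻¹)) * ((x : G) * (a : G)⁻¹ * (x : G)⁻¹) * x := by
          group
      _ = (b : G) * (a : G)⁻¹ * x := by rw [← e]; group
  refine MonoidHom.ext fun c => ?_
  obtain ⟨a, rfl⟩ := (Finite.injective_iff_surjective.mp hφ) c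
  rw [map_mul, map_inv, ← MonoidHom.comp_apply, he, inv_mul_cancel, MonoidHom.one_apply]

/-- Evaluation of a function induced from `A` at a nontrivial element of `A`. -/
lemma indA [Fintype G] [Fintype N] (f : ↥(A) → ℂ) (a : ↥(A)) (ha : a ≠ 1) :
    indFun (A) f (a : G) = (Nat.card ↥(A) : ℂ)⁻¹ * ∑ x : N, f (cj x a) := by
  classical
  rw [indFun]
  congr 1
  have hzero : ∀ x : G, x ∉ N → extendByZero (A) f (x⁻¹ * (a : G) * x) = 0 := by
    intro x hx
    refine extendByZero_not_mem _ _ fun hm => hx ?_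
    have := h.ti hloc a.2 (fun e => ha (Subtype.ext e)) (g := x⁻¹) (by rwa [inv_inv])
    simpa using (N).inv_mem this
  calc ∑ x : G, extendByZero (A) f (x⁻¹ * (a : G) * x)
      = ∑ x ∈ Finset.univ.filter (fun x : G => x ∈ N), extendByZero (A) f (x⁻¹ * (a : G) * x) :=
        (Finset.sum_filter_of_ne fun x _ hx => by
          by_contra hn
          exact hx (hzero x hn)).symm
    _ = ∑ x : N, extendByZero (A) f ((x : G)⁻¹ * (a : G) * x) :=
        Finset.sum_subtype _ (fun x => by simp) _
    _ = ∑ x : N, f (cj x a) := by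
        refine Fintype.sum_equiv (Equiv.inv N) _ _ fun x => ?_
        have e : (x : G)⁻¹ * (a : G) * x = (cj (x⁻¹) a : G) := by rw [cj_coe]; simp
        rw [Equiv.inv_apply, e, extendByZero_coe]

lemma card_N : ∃ r : ℕ, Nat.card N = Nat.card ↥(A) * r ∧
    r = Nat.card {o : ↥(A) // o * o = 1 ∧ o ≠ 1} := by
  obtain ⟨t, htS, ht⟩ := h.exists_t0
  let t' : ↥(A) := ⟨t, h.S_le_A htS⟩
  refine ⟨((A).subgroupOf N).index, ?_, ?_⟩
  · rw [← ((A).subgroupOf N).card_mul_index, Nat.card_congr (subgroupOfEquivOfLe A_le_N).toEquiv]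
  rw [Subgroup.index_eq_card]
  let ψ : N ⧸ (A).subgroupOf N → {o : ↥(A) // o * o = 1 ∧ o ≠ 1} := fun c => Quotient.liftOn' c
    (fun x => ⟨cj x t', by rw [← map_mul, show t' * t' = 1 from Subtype.ext (mul_self ht), map_one],
      fun e => ne_one ht (conj_eq_one_iff.mp (congrArg Subtype.val e))⟩) (by
      intro a b hab
      rw [QuotientGroup.leftRel_apply, mem_subgroupOf] at hab
      refine Subtype.ext ?_
      show cj a t' = cj b t'
      rw [show b = a * (a⁻¹ * b) by rw [mul_inv_cancel_left], cj_mul, h.cj_of_mem hab]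
      rfl)
  refine Nat.card_eq_of_bijective ψ ⟨?_, ?_⟩
  · intro p q
    induction p using Quotient.inductionOn' with
    | _ a =>
    induction q using Quotient.inductionOn' with
    | _ b =>
    intro hab
    have e : (a : G) * t * (a : G)⁻¹ = (b : G) * t * (b : G)⁻¹ :=
      congrArg (fun o : {o : ↥(A) // o * o = 1 ∧ o ≠ 1} => ((o.1 : ↥(A)) : G)) hab
    rw [Quotient.eq'', QuotientGroup.leftRel_apply, mem_subgroupOf]
    refine h.mem_A_of_stab ht htS ?_
    simp only [Subgroup.coe_mul, Subgroup.coe_inv]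
    calc (a : G)⁻¹ * b * t * ((a : G)⁻¹ * b)⁻¹ = (a : G)⁻¹ * ((b : G) * t * (b : G)⁻¹) * a := by group
      _ = t := by rw [← e]; group
  · rintro ⟨o, ho, ho1⟩
    have ho2 : orderOf (o : G) = 2 := orderOf_two_of (congrArg Subtype.val ho) fun e => ho1 (Subtype.ext e)
    obtain ⟨k, hk, hko⟩ := h.conj_in_N ht ho2 htS (h.involution_mem_S o.2 ho2)
    exact ⟨QuotientGroup.mk ⟨k, hk⟩, Subtype.ext (Subtype.ext hko)⟩

theorem sq_eq_one {a₀ : G} (ha₀ : a₀ ∈ A) : a₀ * a₀ = 1 := by
  classical
  by_contra hne₀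
  letI : CommGroup ↥(A) :=
    { (inferInstance : Group ↥(A)) with mul_comm := fun a b => Subtype.ext (h.commA a.2 b.2) }
  have := Fintype.ofFinite G
  have := Fintype.ofFinite ↥(A)
  have := Fintype.ofFinite N
  haveI : NeZero (Monoid.exponent ↥(A)) := ⟨Monoid.exponent_ne_zero_of_finite⟩
  obtain ⟨t, htS, ht⟩ := h.exists_t0
  let t' : ↥(A) := ⟨t, h.S_le_A htS⟩
  have ht' : t' * t' = 1 := Subtype.ext (mul_self ht)
  have ht'1 : t' ≠ 1 := fun e => ne_one ht (congrArg Subtype.val e)
  obtain ⟨r, hN, hr⟩ := h.card_N hloc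
  -- two kinds of linear characters
  let a₁ : ↥(A) := ⟨a₀, ha₀⟩
  obtain ⟨l', hl'⟩ := CommGroup.exists_apply_ne_one_of_hasEnoughRootsOfUnity ↥(A) ℂ
    (show a₁ * a₁ ≠ 1 from fun e => hne₀ (congrArg Subtype.val e))
  obtain ⟨l₁, hl₁⟩ := CommGroup.exists_apply_ne_one_of_hasEnoughRootsOfUnity ↥(A) ℂ ht'1
  let l₀ : ↥(A) →* ℂˣ := l' * l'
  have hl₀ : ∀ o : ↥(A), o * o = 1 → l₀ o = 1 := fun o ho => by
    show l' o * l' o = 1
    rw [← map_mul, ho, map_one]
  have hl₀1 : l₀ ≠ 1 := fun e => hl' (by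
    rw [map_mul]
    exact DFunLike.congr_fun e a₁)
  have hl₁1 : l₁ ≠ 1 := fun e => hl₁ (DFunLike.congr_fun e t')
  -- orbits of nontrivial linear characters
  let D := {l : ↥(A) →* ℂˣ // l ≠ 1}
  haveI : Finite (↥(A) →* ℂˣ) := Finite.of_injective _ (fun f g hfg =>
    (CommGroup.monoidHom_mulEquiv_of_hasEnoughRootsOfUnity ↥(A) ℂ).some.injective hfg)
  let rel : D → D → Prop := fun l m => ∃ x : N, m.1 = l.1.comp (cj x)
  have hrel : Equivalence rel := by
    refine ⟨fun l => ⟨1, by rw [cj_one, MonoidHom.comp_id]⟩, ?_, ?_⟩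
    · rintro l m ⟨x, hx⟩
      refine ⟨x⁻¹, ?_⟩
      rw [hx, MonoidHom.comp_assoc, ← cj_mul, mul_inv_cancel, cj_one, MonoidHom.comp_id]
    · rintro l m n ⟨x, hx⟩ ⟨y, hy⟩
      exact ⟨x * y, by rw [hy, hx, MonoidHom.comp_assoc, cj_mul]⟩
  let sd : Setoid D := ⟨rel, hrel⟩
  let ι := Quotient sd
  haveI : Finite ι := Quotient.finite _
  letI : Fintype ι := Fintype.ofFinite ι
  let rep : ι → ↥(A) →* ℂˣ := fun i => (Quotient.out i).1
  have hrep1 : ∀ i, rep i ≠ 1 := fun i => (Quotient.out i).2
  have hrepR : ∀ l : D, ∃ x : N, l.1 = (rep (Quotient.mk sd l)).comp (cj x) := fun l =>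
    Quotient.exact (Quotient.out_eq (Quotient.mk sd l))
  have hrepinj : ∀ i j, ∀ x : N, rep i = (rep j).comp (cj x) → i = j ∧ (x : G) ∈ A := by
    intro i j x hx
    have hij : j = i := by
      rw [← Quotient.out_eq j, ← Quotient.out_eq i]
      exact Quotient.sound ⟨x, hx⟩
    subst hij
    exact ⟨rfl, h.free hloc (hrep1 j) hx.symm⟩
  set i₀ : ι := Quotient.mk sd ⟨l₀, hl₀1⟩ with hi₀
  set i₁ : ι := Quotient.mk sd ⟨l₁, hl₁1⟩ with hi₁
  have hr0 : ∀ o : ↥(A), o * o = 1 → rep i₀ o = 1 := by
    intro o ho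
    obtain ⟨x, hx⟩ := hrepR ⟨l₀, hl₀1⟩
    have := DFunLike.congr_fun hx (cj x⁻¹ o)
    have e : cj x (cj x⁻¹ o) = o := by
      rw [← MonoidHom.comp_apply, ← cj_mul, mul_inv_cancel, cj_one, MonoidHom.id_apply]
    rw [MonoidHom.comp_apply, e, show (⟨l₀, hl₀1⟩ : D).1 (cj x⁻¹ o) = l₀ (cj x⁻¹ o) from rfl,
      hl₀ _ (by rw [← map_mul, ho, map_one])] at this
    exact this.symm
  obtain ⟨o₁, ho₁, ho₁'⟩ : ∃ o : ↥(A), (∃ x : N, o = cj x t') ∧ rep i₁ o ≠ 1 := by
    obtain ⟨x, hx⟩ := hrepR ⟨l₁, hl₁1⟩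
    exact ⟨_, ⟨x, rfl⟩, fun e => hl₁ (by rw [← e]; exact DFunLike.congr_fun hx t')⟩
  have h01 : i₁ ≠ i₀ := by
    obtain ⟨x, rfl⟩ := ho₁
    intro e
    rw [e] at ho₁'
    exact ho₁' (hr0 _ (by rw [← map_mul, ht', map_one]))
  -- virtual characters
  let lam : ι → ↥(A) → ℂ := fun i a => (rep i a : ℂ)
  let f : ι → ↥(A) → ℂ := fun i => lam i - lam i₀
  let τ : ι → G → ℂ := fun i => indFun (A) (f i)
  have hf1 : ∀ i, f i 1 = 0 := fun i => by simp [f, lam]
  have hτgen : ∀ i, IsGeneralizedCharacter G (τ i) := fun i => isGeneralized_indFun _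
    ⟨_, _, isCharacter_of_isIrr (isIrrCharacter_linear (rep i)),
      isCharacter_of_isIrr (isIrrCharacter_linear (rep i₀)), rfl⟩
  have hτ0 : τ i₀ = 0 := by
    show indFun (A) (lam i₀ - lam i₀) = 0
    rw [sub_self, indFun_zero]
  have hτ1 : ∀ i, τ i 1 = 0 := fun i => by
    show indFun (A) (f i) 1 = 0
    rw [indFun_one, hf1]; simp
  let e : ι → ι → ℂ := fun a b =>
    ∑ x : N, classInner (lam a) (fun c => lam b (cj x c))
  have he : ∀ a b, e a b = if a = b then (Nat.card ↥(A) : ℂ) else 0 := by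
    intro a b
    have hterm : ∀ x : N, classInner (lam a) (fun c => lam b (cj x c)) =
        if a = b ∧ (x : G) ∈ A then 1 else 0 := by
      intro x
      have hi2 : IsIrrCharacter ↥(A) (fun c => lam b (cj x c)) :=
        isIrrCharacter_linear ((rep b).comp (cj x))
      split_ifs with hc
      · rw [show (fun c => lam b (cj x c)) = lam a by
          funext c; simp only [lam, hc.1, h.cj_of_mem hc.2, MonoidHom.id_apply]]
        exact classInner_irr_self (isIrrCharacter_linear _)
      · refine classInner_irr_ne (isIrrCharacter_linear _) hi2 fun he => hc ?_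
        exact hrepinj a b x (MonoidHom.ext fun c => Units.ext (congrFun he c))
    show ∑ x : N, classInner (lam a) (fun c => lam b (cj x c)) = _
    rw [Finset.sum_congr rfl fun x _ => hterm x]
    by_cases hab : a = b
    · simp only [hab, true_and, if_true, Finset.sum_boole]
      rw [Nat.cast_inj, Nat.card_congr (subgroupOfEquivOfLe A_le_N).symm.toEquiv,
        Nat.card_eq_fintype_card, ← Fintype.card_subtype]
      exact Fintype.card_congr (Equiv.subtypeEquivRight fun x => mem_subgroupOf.symm)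
    · simp [hab]
  have hgram : ∀ i j, classInner (τ i) (τ j) =
      (Nat.card ↥(A) : ℂ)⁻¹ * (e i j - e i i₀ - e i₀ j + e i₀ i₀) := by
    intro i j
    show classInner (indFun (A) (f i)) (indFun (A) (f j)) = _
    rw [classInner_indFun (A) (f i) (isClassFunction_indFun _ _)]
    have hstep : classInner (f i) (fun a : ↥(A) => indFun (A) (f j) (a : G)) =
        (Nat.card ↥(A) : ℂ)⁻¹ * ∑ x : N, classInner (f i) (fun a => f j (cj x a)) := by
      simp only [classInner, Finset.mul_sum]
      rw [Finset.sum_comm]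
      refine Finset.sum_congr rfl fun a _ => ?_
      by_cases ha : a = 1
      · simp [ha, hf1]
      · rw [h.indA hloc (f j) a ha]
        simp only [map_mul, map_inv₀, map_natCast, map_sum, Finset.mul_sum]
        exact Finset.sum_congr rfl fun x _ => by ring
    rw [hstep]
    congr 1
    simp only [e, ← Finset.sum_sub_distrib, ← Finset.sum_add_distrib]
    refine Finset.sum_congr rfl fun x _ => ?_
    rw [show (fun a => f j (cj x a)) = (fun a => lam j (cj x a)) - (fun a => lam i₀ (cj x a)) from rfl]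
    show classInner (lam i - lam i₀) _ = _
    rw [classInner_sub_left, classInner_sub_right, classInner_sub_right]
    ring
  have hA0 : (Nat.card ↥(A) : ℂ) ≠ 0 := card_ne_zero_complex _
  obtain ⟨ε, hε, μ, hμ, hτμ⟩ := exists_coherent_family i₀ τ hτ0 hτgen hτ1 (by
    intro i j hi hj
    refine ⟨fun hij => ?_, fun hij => ?_⟩
    · subst hij
      rw [hgram, he, he, he, he, if_pos rfl, if_neg hi, if_neg (Ne.symm hi), if_pos rfl]
      field_simp; ring
    · rw [hgram, he, he, he, he, if_neg hij, if_neg hi, if_neg (Ne.symm hj), if_pos rfl]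
      field_simp; ring)
  have hε0 : ε ≠ 0 := by rcases hε with rfl | rfl <;> norm_num
  set d := charDegree (μ i₀ : G → ℂ) with hd
  have hdeg : ∀ i, ((μ i : G → ℂ) 1) = (d : ℂ) := by
    intro i
    have h1 := congrFun (hτμ i) 1
    rw [hτ1, Pi.smul_apply, Pi.sub_apply, smul_eq_mul, zero_eq_mul, sub_eq_zero] at h1
    rw [h1.resolve_left hε0, hd, ← apply_one_eq_charDegree (isCharacter_of_isIrr (μ i₀).2)]
  have hdpos : 0 < d := charDegree_pos (μ i₀).2
  -- the value at the involution
  have hval : τ i₁ t ≠ 0 := by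
    have h1 : τ i₁ t = (Nat.card ↥(A) : ℂ)⁻¹ * ∑ x : N, (lam i₁ (cj x t') - 1) := by
      show indFun (A) (f i₁) ((t' : ↥(A)) : G) = _
      rw [h.indA hloc (f i₁) t' ht'1]
      refine congrArg _ (Finset.sum_congr rfl fun x _ => ?_)
      show lam i₁ (cj x t') - lam i₀ (cj x t') = _
      simp only [lam, hr0 _ (show cj x t' * cj x t' = 1 by rw [← map_mul, ht', map_one]), Units.val_one]
    rw [h1]
    refine mul_ne_zero (inv_ne_zero hA0) ?_
    have hpm : ∀ x : N, lam i₁ (cj x t') - 1 = if rep i₁ (cj x t') = 1 then (0 : ℂ) else -2 := by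
      intro x
      split_ifs with hx
      · simp [lam, hx]
      · have hsq : lam i₁ (cj x t') * lam i₁ (cj x t') = 1 := by
          simp only [lam, ← Units.val_mul, ← map_mul, ← map_mul (cj x), ht', map_one, Units.val_one]
        rcases mul_self_eq_one_iff.mp hsq with h1 | h1
        · exact absurd (Units.val_eq_one.mp h1) hx
        · rw [h1]; norm_num
    rw [Finset.sum_congr rfl fun x _ => hpm x, Finset.sum_ite, Finset.sum_const_zero, zero_add,
      Finset.sum_const, nsmul_eq_mul]
    refine mul_ne_zero ?_ (by norm_num)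
    rw [Nat.cast_ne_zero, Finset.card_ne_zero]
    obtain ⟨x, rfl⟩ := ho₁
    exact ⟨x, Finset.mem_filter.mpr ⟨Finset.mem_univ _, ho₁'⟩⟩
  set n := (A).index with hn
  have hnpos : 0 < n := Nat.pos_of_ne_zero Subgroup.FiniteIndex.index_ne_zero
  have hct : centralizer ({t} : Set G) = A := h.cent_eq ht htS
  have hτcf : IsClassFunction G (τ i₁) := isClassFunction_indFun _ _
  let Y := Finset.univ.filter fun y : G => y ∈ A ∧ y * y = 1 ∧ y ≠ 1 ∧ y ≠ t
  have hY : Y.card + 1 = r := by
    rw [hr, Nat.card_eq_fintype_card, Fintype.card_subtype]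
    rw [← Finset.card_erase_add_one (s := Finset.univ.filter fun o : ↥(A) => o * o = 1 ∧ o ≠ 1)
      (a := t') (Finset.mem_filter.mpr ⟨Finset.mem_univ _, ht', ht'1⟩)]
    congr 1
    refine Finset.card_bij (fun y hy => (⟨y, (Finset.mem_filter.mp hy).2.1⟩ : ↥(A))) ?_ ?_ ?_
    · intro y hy
      obtain ⟨-, hyA, hy2, hy1, hyt⟩ := Finset.mem_filter.mp hy
      refine Finset.mem_erase.mpr ⟨fun e => hyt (congrArg Subtype.val e), Finset.mem_filter.mpr
        ⟨Finset.mem_univ _, Subtype.ext hy2, fun e => hy1 (congrArg Subtype.val e)⟩⟩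
    · intro y _ y' _ e
      exact congrArg Subtype.val e
    · intro o ho
      obtain ⟨hot, ho'⟩ := Finset.mem_erase.mp ho
      obtain ⟨-, ho2, ho1⟩ := Finset.mem_filter.mp ho'
      exact ⟨o, Finset.mem_filter.mpr ⟨Finset.mem_univ _, o.2, congrArg Subtype.val ho2,
        fun e => ho1 (Subtype.ext e), fun e => hot (Subtype.ext e)⟩, rfl⟩
  have hpairs : ∑ x : G, ∑ y : G, classInd t x * classInd t y * τ i₁ (x * y) =
      (n : ℂ) * (Y.card : ℂ) * τ i₁ t := by
    have hinner : ∀ y : G, classInd t y * τ i₁ (t * y) = if y ∈ Y then τ i₁ t else 0 := by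
      intro y
      split_ifs with hy
      · obtain ⟨-, hyA, hy2, hy1, hyt⟩ := Finset.mem_filter.mp hy
        have hyo := orderOf_two_of hy2 hy1
        have hto : orderOf (t * y) = 2 := by
          refine orderOf_two_of ?_ ?_
          · rw [h.commA (h.S_le_A htS) hyA, show y * t * (y * t) = y * (t * y) * t by group,
              h.commA (h.S_le_A htS) hyA, show y * (y * t) * t = (y * y) * (t * t) by group,
              hy2, mul_self ht, one_mul]
          · intro e1
            exact hyt ((mul_eq_one_iff_eq_inv.mp e1).trans (inv_self hyo)).symm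
        rw [classInd_of (h.all_conj hyo ht), one_mul]
        obtain ⟨g, hg⟩ := isConj_iff.mp (h.all_conj ht hto)
        rw [← hg, hτcf]
      · by_contra hne
        obtain ⟨hc, hτ⟩ := mul_ne_zero_iff.mp hne
        have hyc : IsConj y t := by
          by_contra hh; exact hc (classInd_of_not hh)
        have hyo : orderOf y = 2 := (isConj_orderOf hyc).trans ht
        obtain ⟨g, hgA, hgf⟩ := exists_conj_of_indFun_ne_zero (A) (f i₁) hτ
        have hy1 : t * y ≠ 1 := fun e1 => hτ (by rw [e1]; exact hτ1 i₁)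
        have hu : orderOf (g⁻¹ * t * g) = 2 := by simpa using (orderOf_conj g⁻¹ t).trans ht
        have hcomm := h.inverted_commute hgA hu (by
          have := conj_prod ht hyo
          rw [inv_self ht] at this
          calc g⁻¹ * t * g * (g⁻¹ * (t * y) * g) * (g⁻¹ * t * g)
              = g⁻¹ * (t * (t * y) * t) * g := by group
            _ = (g⁻¹ * (t * y) * g)⁻¹ := by rw [this]; group)
        have hty : t * (t * y) = t * y * t := by
          have e1 : g⁻¹ * (t * (t * y)) * g = g⁻¹ * (t * y * t) * g := by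
            rw [show g⁻¹ * (t * (t * y)) * g = g⁻¹ * t * g * (g⁻¹ * (t * y) * g) by group, hcomm]
            group
          exact mul_left_cancel (mul_right_cancel e1)
        have hyA : y ∈ A := by
          rw [← hct, mem_centralizer_singleton_iff]
          exact (mul_left_cancel (hty.trans (mul_assoc t y t))).symm
        refine hy (Finset.mem_filter.mpr ⟨Finset.mem_univ _, hyA, mul_self hyo, ne_one hyo, ?_⟩)
        rintro rfl
        exact hy1 (mul_self hyo)
    have hsum : ∀ x : G, ∑ y : G, classInd t x * classInd t y * τ i₁ (x * y) =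
        classInd t x * ((Y.card : ℂ) * τ i₁ t) := by
      intro x
      simp only [mul_assoc, ← Finset.mul_sum]
      by_cases hx : IsConj x t
      · congr 1
        obtain ⟨g, hg⟩ := isConj_iff.mp hx.symm
        have : ∑ y : G, classInd t y * τ i₁ (x * y) = ∑ y : G, classInd t y * τ i₁ (t * y) := by
          refine (Fintype.sum_equiv (MulAut.conj g).toEquiv _ _ fun y => ?_).symm
          show _ = classInd t (g * y * g⁻¹) * τ i₁ (x * (g * y * g⁻¹))
          rw [classInd_conj, ← hg, show g * t * g⁻¹ * (g * y * g⁻¹) = g * (t * y) * g⁻¹ by group, hτcf]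
        rw [this, Finset.sum_congr rfl fun y _ => hinner y, ← Finset.sum_filter,
          Finset.filter_univ_mem, Finset.sum_const, nsmul_eq_mul]
      · rw [classInd_of_not hx, zero_mul, zero_mul]
    rw [Finset.sum_congr rfl fun x _ => hsum x, ← Finset.sum_mul]
    have h1 := sum_classInd_mul (G := G) (χ := fun _ => (1 : ℂ))
      (isClassFunction_of_isIrr isIrrCharacter_one) t
    simp only [mul_one] at h1
    rw [h1, hct, ← mul_assoc]
  have hkey : (n : ℂ) * ((μ i₁ : G → ℂ) t + (μ i₀ : G → ℂ) t) = (Y.card : ℂ) * d := by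
    have hexp : ∑ x : G, ∑ y : G, classInd t x * classInd t y * τ i₁ (x * y) =
        ε * ((n : ℂ) * n * ((μ i₁ : G → ℂ) t * (μ i₁ : G → ℂ) t) / d -
          (n : ℂ) * n * ((μ i₀ : G → ℂ) t * (μ i₀ : G → ℂ) t) / d) := by
      have e1 := sum_classes_mul (μ i₁).2 t t
      have e0 := sum_classes_mul (μ i₀).2 t t
      rw [hct, hdeg] at e1
      rw [hct, hdeg] at e0
      rw [← hn] at e1 e0
      rw [hτμ i₁, ← e1, ← e0]
      simp only [Pi.smul_apply, Pi.sub_apply, smul_eq_mul, mul_sub, Finset.mul_sum,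
        Finset.sum_sub_distrib]
      congr 1 <;> exact Finset.sum_congr rfl fun x _ => Finset.sum_congr rfl fun y _ => by ring
    rw [hpairs, congrFun (hτμ i₁) t] at hexp
    simp only [Pi.smul_apply, Pi.sub_apply, smul_eq_mul] at hexp
    have hne : (μ i₁ : G → ℂ) t - (μ i₀ : G → ℂ) t ≠ 0 := fun e1 => hval (by
      rw [congrFun (hτμ i₁) t]; simp [e1])
    have hdc : (d : ℂ) ≠ 0 := Nat.cast_ne_zero.mpr hdpos.ne'
    have hnc : (n : ℂ) ≠ 0 := Nat.cast_ne_zero.mpr hnpos.ne'
    field_simp at hexp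
    have h2 : ((μ i₁ : G → ℂ) t - (μ i₀ : G → ℂ) t) *
        ((n : ℂ) * ((μ i₁ : G → ℂ) t + (μ i₀ : G → ℂ) t) - (Y.card : ℂ) * d) = 0 := by
      linear_combination -hexp
    exact sub_eq_zero.mp ((mul_eq_zero.mp h2).resolve_left hne)
  have hint : ∀ χ : IrrCharacter G, IsIntegral ℤ ((χ : G → ℂ) t) := fun χ => by
    obtain ⟨m, ρ, -, hρ⟩ := χ.2
    rw [← hρ]; exact isIntegral_character ρ t
  obtain ⟨z, hz⟩ : ∃ z : ℤ, ((Y.card : ℚ) * d / n) = z := exists_int_of_isIntegral (by
    push_cast
    rw [← hkey, mul_div_cancel_left₀ _ (Nat.cast_ne_zero.mpr hnpos.ne')]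
    exact (hint _).add (hint _))
  -- counting
  have hs : Nat.card ↥(A) ≤ Nat.card ι * r + 1 := by
    have hr' : Nat.card (N ⧸ (A).subgroupOf N) = r := by
      have h1 := ((A).subgroupOf N).card_mul_index
      rw [Nat.card_congr (subgroupOfEquivOfLe A_le_N).toEquiv, hN] at h1
      rw [← Subgroup.index_eq_card]
      exact Nat.eq_of_mul_eq_mul_left Nat.card_pos h1
    let F : ι × (N ⧸ (A).subgroupOf N) → D := fun p => ⟨(rep p.1).comp (cj p.2.out), fun e1 => hrep1 p.1 (by
      have := congrArg (fun l : ↥(A) →* ℂˣ => l.comp (cj (p.2.out)⁻¹)) e1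
      simpa only [MonoidHom.comp_assoc, ← cj_mul, mul_inv_cancel, cj_one, MonoidHom.comp_id,
        MonoidHom.one_comp] using this)⟩
    have hF : Function.Surjective F := by
      intro l
      obtain ⟨x, hx⟩ := hrepR l
      refine ⟨(Quotient.mk sd l, QuotientGroup.mk x), Subtype.ext ?_⟩
      obtain ⟨a, ha⟩ := QuotientGroup.mk_out_eq_mul ((A).subgroupOf N) x
      show (rep _).comp (cj (QuotientGroup.mk x : N ⧸ (A).subgroupOf N).out) = l.1
      rw [ha, cj_mul, h.cj_of_mem (mem_subgroupOf.mp a.2), MonoidHom.comp_id, ← hx]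
    have h1 := Nat.card_le_card_of_surjective F hF
    rw [Nat.card_prod, hr'] at h1
    have h2 : Nat.card D + 1 = Nat.card ↥(A) := by
      have := Fintype.ofFinite (↥(A) →* ℂˣ)
      rw [← CommGroup.card_monoidHom_of_hasEnoughRootsOfUnity ↥(A) ℂ, Nat.card_eq_fintype_card,
        Nat.card_eq_fintype_card, Fintype.card_subtype_compl, Fintype.card_subtype_eq]
      have := Fintype.card_pos (α := ↥(A) →* ℂˣ)
      omega
    omega
  have hsum : Nat.card ι * (d * d) ≤ n * Nat.card ↥(A) := by
    rw [hn, (A).index_mul_card, ← sum_charDegree_sq (G := G)]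
    have h1 : ∑ χ ∈ Finset.univ.image μ, charDegree (χ : G → ℂ) ^ 2 = Nat.card ι * (d * d) := by
      rw [Finset.sum_image fun i _ j _ hij => hμ hij,
        Finset.sum_congr rfl fun i _ => by
          rw [charDegree_eq_of_apply_one (hdeg i)],
        Finset.sum_const, Finset.card_univ, smul_eq_mul, Nat.card_eq_fintype_card, pow_two]
    rw [← h1]
    exact Finset.sum_le_sum_of_subset_of_nonneg (Finset.subset_univ _) fun _ _ _ => Nat.zero_le _
  have hnbig : r * (Nat.card ↥(A) + 1) ≤ n := by
    have h1 : Nat.card ↥(A) + 1 ≤ (N).index := by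
      obtain ⟨u, hu, huN⟩ := h.exists_outside
      rw [Subgroup.index_eq_card, ← Finite.card_option]
      refine Nat.card_le_card_of_injective
        (fun o : Option ↥(A) => (o.elim (QuotientGroup.mk 1) fun a => QuotientGroup.mk ((a : G) * u) : G ⧸ N)) ?_
      intro o o' hoo
      match o, o' with
      | none, none => rfl
      | none, some a =>
        simp only [Option.elim, QuotientGroup.eq, inv_one, one_mul] at hoo
        exact absurd (by simpa using (N).mul_mem ((N).inv_mem (A_le_N a.2)) hoo) huN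
      | some a, none =>
        simp only [Option.elim, QuotientGroup.eq, mul_one] at hoo
        exact absurd (by simpa using (N).mul_mem ((N).inv_mem (A_le_N a.2)) ((N).inv_mem_iff.mp hoo)) huN
      | some a, some b =>
        simp only [Option.elim, QuotientGroup.eq] at hoo
        rw [mul_inv_rev, inv_self hu, show u * (a : G)⁻¹ * ((b : G) * u) = u * ((a : G)⁻¹ * b) * u by group] at hoo
        exact congrArg some (Subtype.ext
          (inv_mul_eq_one.mp (h.semiregular hloc ((A).mul_mem ((A).inv_mem a.2) b.2) hu huN hoo)))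
    have h2 : n = r * (N).index := by
      refine Nat.eq_of_mul_eq_mul_left (Nat.card_pos (α := ↥(A))) ?_
      rw [hn, (A).card_mul_index, ← mul_assoc, ← hN, (N).card_mul_index]
    rw [h2]; exact Nat.mul_le_mul_left _ h1
  have hbig : (r + 1) * (r + 1) ≤ Nat.card ↥(A) := by
    let sq : ↥(A) →* ↥(A) := powMonoidHom 2
    have hk : Nat.card sq.ker = r + 1 := by
      have hmem : ∀ o : ↥(A), o ∈ sq.ker ↔ o * o = 1 := fun o => by
        rw [MonoidHom.mem_ker, ← pow_two]; rfl
      rw [hr, Nat.card_eq_fintype_card, Nat.card_eq_fintype_card, Fintype.card_subtype,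
        Fintype.card_subtype,
        ← Finset.card_erase_add_one (s := Finset.univ.filter fun o : ↥(A) => o ∈ sq.ker) (a := 1) (by simp)]
      congr 1
      congr 1
      ext o
      simp [hmem, and_comm]
    have hri : r + 1 ≤ Nat.card sq.range := by
      let a2 : ↥(A) := a₁ * a₁
      have ha2 : a2 ≠ 1 := fun e1 => hne₀ (congrArg Subtype.val e1)
      have hmem : ∀ x : N, cj x a2 ∈ sq.range := fun x => ⟨cj x a₁, by
        show cj x a₁ ^ 2 = cj x (a₁ * a₁)
        rw [pow_two, map_mul]⟩
      have hF : Function.Injective fun c : N ⧸ (A).subgroupOf N =>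
          (⟨⟨_, hmem c.out⟩, fun e1 => ha2 (by
            have e2 : cj c.out a2 = 1 := congrArg Subtype.val e1
            exact Subtype.ext (conj_eq_one_iff.mp (congrArg Subtype.val e2)))⟩ : {z : sq.range // z ≠ 1}) := by
        intro c c' hcc
        have e : (c.out : G) * a2 * (c.out : G)⁻¹ = (c'.out : G) * a2 * (c'.out : G)⁻¹ :=
          congrArg (fun z : {z : sq.range // z ≠ 1} => (((z.1 : sq.range) : ↥(A)) : G)) hcc
        rw [← c.out_eq, ← c'.out_eq]
        refine QuotientGroup.eq.mpr (mem_subgroupOf.mpr ?_)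
        refine h.cent_le_A hloc a2.2 (fun e1 => ha2 (Subtype.ext e1)) ?_
        simp only [Subgroup.coe_mul, Subgroup.coe_inv]
        calc (c.out : G)⁻¹ * c'.out * a2
            = (c.out : G)⁻¹ * ((c'.out : G) * a2 * (c'.out : G)⁻¹) * c'.out := by group
          _ = (a2 : G) * ((c.out : G)⁻¹ * c'.out) := by rw [← e]; group
      have h1 := Nat.card_le_card_of_injective _ hF
      have hr' : Nat.card (N ⧸ (A).subgroupOf N) = r := by
        have h1 := ((A).subgroupOf N).card_mul_index
        rw [Nat.card_congr (subgroupOfEquivOfLe A_le_N).toEquiv, hN] at h1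
        rw [← Subgroup.index_eq_card]
        exact Nat.eq_of_mul_eq_mul_left Nat.card_pos h1
      have := Fintype.ofFinite sq.range
      rw [hr', Nat.card_eq_fintype_card, Fintype.card_subtype_compl, Fintype.card_subtype_eq] at h1
      have := Fintype.card_pos (α := sq.range)
      rw [Nat.card_eq_fintype_card]
      omega
    rw [← sq.ker.card_mul_index, Subgroup.index_ker, hk]
    exact Nat.mul_le_mul_left _ hri
  -- conclusion
  have hle : n ≤ d * Y.card := by
    have hz' : ((Y.card * d : ℕ) : ℤ) = z * n := by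
      have := hz
      field_simp at this
      exact_mod_cast (by linear_combination this : ((Y.card : ℚ) * d) = (z : ℚ) * n)
    have hY0 : Y.card ≠ 0 := by
      intro hY0
      haveI : Fact (Nat.Prime 2) := ⟨Nat.prime_two⟩
      have huniq : ∀ H : Subgroup (S : Subgroup G), Nat.card H = 2 →
          H = Subgroup.zpowers (⟨t, htS⟩ : (S : Subgroup G)) := by
        intro H hH
        have : Nontrivial H := Finite.one_lt_card_iff_nontrivial.mp (by omega)
        obtain ⟨o, ho⟩ := exists_ne (1 : H)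
        have ho2 : orderOf ((o : (S : Subgroup G)) : G) = 2 := by
          rw [orderOf_coe, orderOf_coe]
          exact ((Nat.dvd_prime Nat.prime_two).mp ((orderOf_dvd_natCard o).trans hH.dvd)).resolve_left
            (fun e => ho (orderOf_eq_one_iff.mp e))
        have hot : ((o : (S : Subgroup G)) : G) = t := by
          by_contra hne
          exact (Finset.card_pos.mpr ⟨_, Finset.mem_filter.mpr ⟨Finset.mem_univ _,
            h.S_le_A o.1.2, mul_self ho2, ne_one ho2, hne⟩⟩).ne' hY0
        symm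
        refine eq_of_le_of_card_ge (zpowers_le.mpr ?_) ?_
        · rw [show (⟨t, htS⟩ : (S : Subgroup G)) = (o : (S : Subgroup G)) from Subtype.ext hot.symm]
          exact o.2
        · rw [hH, Nat.card_zpowers, ← orderOf_coe]
          exact ht.ge
      haveI : IsMulCommutative (⊤ : Subgroup (S : Subgroup G)) :=
        ⟨⟨fun a b => Subtype.ext (Subtype.ext (h.commS a.1.2 b.1.2))⟩⟩
      haveI := UniqueInvolution.isCyclic_of_comm (p := 2) S.isPGroup'
        (fun H K hH hK => (huniq H hH).trans (huniq K hK).symm) (⊤ : Subgroup (S : Subgroup G))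
      exact h.nc (isCyclic_of_surjective (Subgroup.topEquiv (G := (S : Subgroup G))).toMonoidHom
        Subgroup.topEquiv.surjective)
    have hpos : 0 < z := by
      by_contra hz0
      have : z * (n : ℤ) ≤ 0 := mul_nonpos_of_nonpos_of_nonneg (not_lt.mp hz0) (by positivity)
      have : (Y.card * d : ℕ) = 0 := by omega
      simp [hY0, hdpos.ne'] at this
    have : (n : ℤ) ≤ ((Y.card * d : ℕ) : ℤ) := by rw [hz']; exact le_mul_of_one_le_left (by positivity) hpos
    rw [mul_comm]; exact_mod_cast this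
  subst hY
  exact numeric hnpos hbig hs hsum hle (by simpa using hnbig)

end AbCent

end Cfsg.Agent.Lib.AbelianInvCent
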