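import Cfsg.Agent.Lib.AbelianInvCent.Basic

/-!
The case where no nontrivial element of the abelian subgroup `A` has a centraliser outside `N`.
-/

set_option autoImplicit false

namespace Cfsg.Agent.Lib.AbelianInvCent

open Subgroup Cfsg.Agent.Lib.Involution

variable {G : Type*} [Group G] [Finite G] {S : Sylow 2 G}

local notation "A" => centralizer ((S : Subgroup G) : Set G)
local notation "N" => normalizer ((S : Subgroup G) : Set G)

lemma mul_conj_eq {x y u : G} (hu : orderOf u = 2) : u * (x * y) * u = (u * x * u) * (u * y * u) := by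
  rw [show (u * x * u) * (u * y * u) = u * x * (u * u) * y * u by group, mul_self hu, mul_one,
    mul_assoc u x y]

namespace AbCent

variable (h : AbCent S) (hloc : ∀ b ∈ centralizer ((S : Subgroup G) : Set G), b ≠ 1 →
  centralizer ({b} : Set G) ≤ normalizer ((S : Subgroup G) : Set G))
include h hloc

/-- `A` contains the centraliser of each of its nontrivial elements. -/
theorem cent_le_A {a x : G} (ha : a ∈ A) (hne : a ≠ 1) (hx : x * a = a * x) : x ∈ A := by
  by_cases heven : Even (orderOf a)
  · have hz := h.exists_inv_of_even heven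
    rw [← h.cent_eq hz (h.involution_mem_S (pow_mem ha _) hz), mem_centralizer_singleton_iff]
    exact (Commute.pow_right hx _).eq
  by_contra hxA
  have hxN : x ∈ N := hloc a ha hne (mem_centralizer_singleton_iff.mpr hx)
  obtain ⟨u, hu, huN⟩ := h.exists_outside
  have huxN : u * x ∉ N := fun hh => huN (by simpa using (N).mul_mem hh ((N).inv_mem hxN))
  obtain ⟨v, hv, hvN, hvA⟩ := h.coset_involution huxN
  set e := (u * x)⁻¹ * v with he
  set k := x * e with hk
  have hvk : v = u * k := by rw [hk, he]; group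
  have hkN : k ∈ N := (N).mul_mem hxN (A_le_N hvA)
  have hka : k * a = a * k := (Commute.mul_left hx (h.commA hvA ha)).eq
  have hkA : k ∉ A := fun hh => hxA (by simpa [hk] using (A).mul_mem hh ((A).inv_mem hvA))
  have hinv : u * k * u = k⁻¹ := by
    have := mul_self hv
    rw [hvk] at this
    exact eq_inv_of_mul_eq_one_left (by rw [← this]; simp only [mul_assoc])
  have hk1 : k ≠ 1 := fun e1 => hkA (e1 ▸ one_mem _)
  have hkodd : Odd (orderOf k) := by
    by_contra hev
    rw [Nat.not_odd_iff_even] at hev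
    have hz := h.exists_inv_of_even hev
    have hzS := mem_S_of_involution (S := S) hz (pow_mem hkN _)
    refine huN (h.cent_le_N hz hzS ?_)
    set z := k ^ (orderOf k / 2) with hzdef
    have e1 : u * z * u = z := by
      have := conj_pow (i := orderOf k / 2) (a := u) (b := k)
      rw [inv_self hu, hinv] at this
      rw [hzdef, ← this, inv_pow, ← hzdef, inv_self hz]
    calc u * z = u * z * (u * u) := by rw [mul_self hu, mul_one]
      _ = z * u := by rw [← mul_assoc, e1]
  -- no involution centralises `k`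
  have hodd : ∀ s : G, orderOf s = 2 → s * k ≠ k * s := by
    intro s hs hsk
    obtain ⟨g, hg⟩ := h.exists_move hs
    have hk' : g * k * g⁻¹ ∈ A := by
      rw [← h.cent_eq ((orderOf_conj g s).trans hs) hg]
      exact conj_mem_centralizer (mem_centralizer_singleton_iff.mpr hsk.symm)
    have hc := h.inverted_commute hk' ((orderOf_conj g u).trans hu) (by
      rw [show g * u * g⁻¹ * (g * k * g⁻¹) * (g * u * g⁻¹) = g * (u * k * u) * g⁻¹ by group, hinv]
      group)
    have huk : u * k = k * u := by
      have h2 : g * (u * k) * g⁻¹ = g * (k * u) * g⁻¹ := by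
        rw [show g * (u * k) * g⁻¹ = g * u * g⁻¹ * (g * k * g⁻¹) by group, hc]
        group
      exact mul_left_cancel (mul_right_cancel h2)
    rw [huk, mul_assoc, mul_self hu, mul_one] at hinv
    exact hk1 (eq_one_of_mul_self_of_odd hkodd (mul_eq_one_iff_eq_inv.mpr hinv))
  have hodd' : ∀ y : G, y * k = k * y → Odd (orderOf y) := by
    intro y hy
    by_contra hev
    rw [Nat.not_odd_iff_even] at hev
    exact hodd _ (h.exists_inv_of_even hev) (Commute.pow_left hy _).eq
  -- `u` fixes no nontrivial element centralising `k`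
  have hfix : ∀ y : G, y * k = k * y → u * y * u = y → y = 1 := by
    intro y hy hyu
    by_contra hy1
    obtain ⟨g, hg⟩ := h.exists_move hu
    have hcu : y * u = u * y := by
      calc y * u = u * y * u * u := by rw [hyu]
        _ = u * y := by rw [mul_assoc _ u u, mul_self hu, mul_one]
    have hy' : g * y * g⁻¹ ∈ A := by
      rw [← h.cent_eq ((orderOf_conj g u).trans hu) hg]
      exact conj_mem_centralizer (mem_centralizer_singleton_iff.mpr hcu)
    have hy1' : g * y * g⁻¹ ≠ 1 := fun e1 => hy1 (conj_eq_one_iff.mp e1)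
    have hk'N : g * k * g⁻¹ ∈ N := hloc _ hy' hy1'
      (conj_mem_centralizer (mem_centralizer_singleton_iff.mpr hy.symm))
    have h1 : g * u * g⁻¹ * (g * k * g⁻¹ * (g * u * g⁻¹) * (g * k * g⁻¹)⁻¹) ∈ (S : Subgroup G) :=
      (S : Subgroup G).mul_mem hg (conj_S hk'N hg)
    rw [show g * u * g⁻¹ * (g * k * g⁻¹ * (g * u * g⁻¹) * (g * k * g⁻¹)⁻¹)
      = g * (u * k * u * k⁻¹) * g⁻¹ by group, hinv] at h1
    obtain ⟨n, hn⟩ := S.isPGroup' ⟨_, h1⟩
    have h2 : g * (k⁻¹ * k⁻¹) ^ 2 ^ n * g⁻¹ = 1 := by
      rw [← conj_pow]; exact congrArg Subtype.val hn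
    rw [conj_eq_one_iff, ← pow_two, ← pow_mul, inv_pow, inv_eq_one] at h2
    have h3 : orderOf k ∣ 2 ^ (n + 1) := by
      rw [pow_succ']; exact orderOf_dvd_of_pow_eq_one h2
    have h4 : orderOf k = 1 :=
      Nat.eq_one_of_dvd_coprimes (Nat.Coprime.pow_right _ (Nat.coprime_two_right.mpr hkodd)) dvd_rfl h3
    exact hk1 (orderOf_eq_one_iff.mp h4)
  -- hence `u` inverts the centraliser of `k`
  let C := centralizer ({k} : Set G)
  have hC : ∀ y : C, (y : G)⁻¹ * (u * y * u) ∈ C := by
    intro y
    refine C.mul_mem (C.inv_mem y.2) ?_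
    have := conj_mem_centralizer (g := u) y.2
    rw [inv_self hu, hinv, mem_centralizer_singleton_iff] at this
    rw [mem_centralizer_singleton_iff]
    calc u * y * u * k = k * (k⁻¹ * (u * y * u)) * k := by group
      _ = k * (u * y * u) := by rw [← this]; group
  let φ : C → C := fun y => ⟨_, hC y⟩
  have hφ : Function.Injective φ := by
    intro y z hyz
    have e1 : (y : G)⁻¹ * (u * y * u) = (z : G)⁻¹ * (u * z * u) := congrArg Subtype.val hyz
    have e2 : u * ((z : G) * (y : G)⁻¹) * u = (z : G) * (y : G)⁻¹ := by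
      rw [mul_conj_eq hu]
      have e3 : u * (y : G)⁻¹ * u = (u * y * u)⁻¹ := by rw [mul_inv_rev, mul_inv_rev, inv_self hu, mul_assoc]
      rw [e3, show u * (z : G) * u = (z : G) * ((y : G)⁻¹ * (u * y * u)) by rw [e1]; group]
      group
    have := hfix _ (mem_centralizer_singleton_iff.mp (C.mul_mem z.2 (C.inv_mem y.2))) e2
    exact Subtype.ext (mul_inv_eq_one.mp this).symm
  obtain ⟨y, hy⟩ := (Finite.injective_iff_surjective.mp hφ) ⟨a, mem_centralizer_singleton_iff.mpr hka.symm⟩
  have hy' : (y : G)⁻¹ * (u * y * u) = a := congrArg Subtype.val hy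
  have hainv : u * a * u = a⁻¹ := by
    rw [← hy', mul_inv_rev, inv_inv, mul_inv_rev, mul_inv_rev, inv_self hu]
    calc u * ((y : G)⁻¹ * (u * y * u)) * u = u * ((y : G)⁻¹ * u) * y * (u * u) := by group
      _ = u * ((y : G)⁻¹ * u) * y := by rw [mul_self hu, mul_one]
  exact hne (h.inverted_eq_one ha hu huN hainv)

/-- `A` is a trivial-intersection subgroup with normaliser `N`. -/
theorem ti {a g : G} (ha : a ∈ A) (hne : a ≠ 1) (hg : g * a * g⁻¹ ∈ A) : g ∈ N := by
  obtain ⟨t, htS, ht⟩ := h.exists_t0
  refine h.se_mem ht htS (h.involution_mem_S (h.cent_le_A hloc hg (fun e => hne (conj_eq_one_iff.mp e)) ?_)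
    ((orderOf_conj g t).trans ht))
  rw [show g * t * g⁻¹ * (g * a * g⁻¹) = g * (t * a) * g⁻¹ by group, h.commA (h.S_le_A htS) ha]
  group

/-- `A` acts semiregularly on the cosets of `N` outside `N`. -/
theorem semiregular {a u : G} (ha : a ∈ A) (hu : orderOf u = 2) (huN : u ∉ N)
    (hau : u * a * u ∈ N) : a = 1 := by
  by_contra hne
  have h1 : u * a * u * a * (u * a * u)⁻¹ ∈ A := conj_A hau ha
  have hc : u * (u * a * u * a * (u * a * u)⁻¹ * a⁻¹) * u ∈ A := by
    have h3 : a * ((u * a * u) * a⁻¹ * (u * a * u)⁻¹) ∈ A :=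
      (A).mul_mem ha (conj_A hau ((A).inv_mem ha))
    convert h3 using 1
    simp only [mul_inv_rev, inv_self hu, mul_assoc, mul_mul_self_left hu]
  by_cases hce : u * a * u * a * (u * a * u)⁻¹ * a⁻¹ = 1
  · have hmem : u * a * u ∈ A := h.cent_le_A hloc ha hne (by
      have := mul_inv_eq_one.mp hce
      exact mul_inv_eq_iff_eq_mul.mp this)
    exact huN (h.ti hloc ha hne (by rwa [inv_self hu]))
  · exact huN (h.ti hloc ((A).mul_mem h1 ((A).inv_mem ha)) hce (by rwa [inv_self hu]))

end AbCent

end Cfsg.Agent.Lib.AbelianInvCent
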