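import Cfsg.Agent.Lib.SchurMult.SLTwo
import Cfsg.Agent.Lib.SchurAlt.SL2

/-!
Facts on `SL(2, q)`, `q` even: no odd-order complement to an involution centraliser, central extensions
by odd-order groups split.
-/

set_option autoImplicit false

namespace Cfsg.Agent.Lib.AbelianInvCent

open Matrix
open scoped MatrixGroups

variable {F : Type*} [Field F] [CharP F 2]

/-- An element commuting with an involution fixes each vector fixed by the involution. -/
lemma fix_of_commute (τ g : SL(2, F)) (hτ : τ ≠ 1) (hτ2 : τ * τ = 1) (hc : g * τ = τ * g)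
    (v : Fin 2 → F) (hv : v ≠ 0) (hτv : (τ : Matrix (Fin 2) (Fin 2) F) *ᵥ v = v) :
    (g : Matrix (Fin 2) (Fin 2) F) *ᵥ v = v := by
  set T := (τ : Matrix (Fin 2) (Fin 2) F) with hT
  set M := (g : Matrix (Fin 2) (Fin 2) F) with hM
  have hTM : M * T = T * M := congrArg Subtype.val hc
  have hTT : T * T = 1 := congrArg Subtype.val hτ2
  have hli : ∀ w : Fin 2 → F, T *ᵥ w = w → ∃ c : F, w = c • v := by
    intro w hw
    by_contra hno
    push Not at hno
    have hdet : ∀ i j, i = 0 ∧ j = 1 → v i * w j - v j * w i ≠ 0 := by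
      rintro i j ⟨rfl, rfl⟩ h0
      by_cases h00 : v 0 = 0
      · have h11 : v 1 ≠ 0 := fun h1 => hv (by ext k; fin_cases k <;> simp_all)
        refine hno (w 1 / v 1) ?_
        rw [h00, zero_mul, zero_sub, neg_eq_zero, mul_eq_zero] at h0
        ext k; fin_cases k
        · simp [h00, h0.resolve_left h11]
        · simp [div_mul_cancel₀ _ h11]
      · refine hno (w 0 / v 0) ?_
        ext k; fin_cases k
        · simp [div_mul_cancel₀ _ h00]
        · simp only [Fin.mk_one, Pi.smul_apply, smul_eq_mul]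
          field_simp
          linear_combination h0
    have hd := hdet 0 1 ⟨rfl, rfl⟩
    apply hτ
    let P : Matrix (Fin 2) (Fin 2) F := !![v 0, w 0; v 1, w 1]
    have hP : P.det ≠ 0 := by
      rw [Matrix.det_fin_two_of]
      intro h0; exact hd (by linear_combination h0)
    have hTP : T * P = P := by
      ext i k
      fin_cases k
      · have := congrFun hτv i
        simp only [Matrix.mulVec, dotProduct, Fin.sum_univ_two] at this
        fin_cases i <;> simpa [P, Matrix.mul_apply, Fin.sum_univ_two] using this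
      · have := congrFun hw i
        simp only [Matrix.mulVec, dotProduct, Fin.sum_univ_two] at this
        fin_cases i <;> simpa [P, Matrix.mul_apply, Fin.sum_univ_two] using this
    apply Subtype.ext
    show T = 1
    calc T = T * (P * P⁻¹) := by rw [Matrix.mul_nonsing_inv P (isUnit_iff_ne_zero.mpr hP), mul_one]
      _ = 1 := by rw [← mul_assoc, hTP, Matrix.mul_nonsing_inv P (isUnit_iff_ne_zero.mpr hP)]
  obtain ⟨c, hc'⟩ := hli (M *ᵥ v) (by rw [Matrix.mulVec_mulVec, ← hTM, ← Matrix.mulVec_mulVec, hτv])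
  -- `T - 1` has its image in the line through `v`
  have him : ∀ w : Fin 2 → F, ∃ d : F, (T - 1) *ᵥ w = d • v := by
    intro w
    refine hli _ ?_
    rw [Matrix.mulVec_mulVec, mul_sub, hTT, mul_one, Matrix.sub_mulVec, Matrix.sub_mulVec]
    ext k
    simp only [Pi.sub_apply, CharTwo.sub_eq_add]
    ring
  have hker : ∀ w : Fin 2 → F, ∃ d : F, (M - c • 1) *ᵥ w = d • v := by
    intro w
    obtain ⟨d, hd⟩ := him w
    refine hli _ ?_
    have h0 : (T - 1) *ᵥ ((M - c • 1) *ᵥ w) = 0 := by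
      rw [Matrix.mulVec_mulVec,
        show (T - 1) * (M - c • 1) = (M - c • 1) * (T - 1) by
          simp only [mul_sub, sub_mul, mul_one, one_mul, hTM, smul_mul_assoc, mul_smul_comm, smul_sub]
          abel,
        ← Matrix.mulVec_mulVec, hd, Matrix.mulVec_smul, Matrix.sub_mulVec, hc', Matrix.smul_mulVec,
        Matrix.one_mulVec, sub_self, smul_zero]
    rw [Matrix.sub_mulVec, Matrix.one_mulVec, sub_eq_zero] at h0
    exact h0
  have hsq : (M - c • 1) * (M - c • 1) = 0 := by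
    apply Matrix.toLin'.injective
    refine LinearMap.ext fun w => ?_
    obtain ⟨d, hd⟩ := hker w
    rw [Matrix.toLin'_apply, map_zero, LinearMap.zero_apply, ← Matrix.mulVec_mulVec, hd,
      Matrix.mulVec_smul, Matrix.sub_mulVec, hc', Matrix.smul_mulVec, Matrix.one_mulVec, sub_self,
      smul_zero]
  have hMM : M * M = (c * c) • (1 : Matrix (Fin 2) (Fin 2) F) := by
    have : (M - c • 1) * (M - c • 1) = M * M - (c * c) • 1 := by
      simp only [mul_sub, sub_mul, mul_one, one_mul, smul_mul_assoc, mul_smul_comm, smul_smul, smul_sub]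
      have h2 : c • M + c • M = 0 := by
        ext i j; rw [Matrix.add_apply, Matrix.zero_apply]; exact CharTwo.add_self_eq_zero _
      have h3 : (c * c) • (1 : Matrix (Fin 2) (Fin 2) F) + (c * c) • 1 = 0 := by
        ext i j; rw [Matrix.add_apply, Matrix.zero_apply]; exact CharTwo.add_self_eq_zero _
      linear_combination (norm := module) (-1 : F) • h2 + h3
    rw [this, sub_eq_zero] at hsq
    exact hsq
  have h1 : (c * c) * (c * c) = 1 := by
    have h := congrArg Matrix.det hMM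
    rw [Matrix.det_mul, hM, Matrix.SpecialLinearGroup.det_coe, one_mul, Matrix.det_smul,
      Matrix.det_one, mul_one, Fintype.card_fin, pow_two] at h
    exact h.symm
  have hc1 : c = 1 := by
    have h2 : c * c = 1 := CharTwo.sq_inj.1 (by rw [pow_two, h1, one_pow])
    exact CharTwo.sq_inj.1 (by rw [pow_two, h2, one_pow])
  rw [hc', hc1, one_smul]

variable [Finite F]

lemma eq_one_of_fixed_odd (g : SL(2, F)) (v : Fin 2 → F) (hv : v ≠ 0)
    (h : (g : Matrix (Fin 2) (Fin 2) F) *ᵥ v = v) (hg : Odd (orderOf g)) : g = 1 :=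
  haveI : Fact (Nat.Prime 2) := ⟨Nat.prime_two⟩
  SchurMult.SLTwo.eq_one_of_fixed (p := 2) g v hv h (Nat.coprime_two_right.mpr hg) (pow_orderOf_eq_one g)

lemma exists_sl_mulVec (v w : Fin 2 → F) (hv : v ≠ 0) (hw : w ≠ 0) :
    ∃ l : SL(2, F), (l : Matrix (Fin 2) (Fin 2) F) *ᵥ v = w := by
  have key : ∀ w : Fin 2 → F, w ≠ 0 → ∃ l : SL(2, F), (l : Matrix (Fin 2) (Fin 2) F) *ᵥ ![1, 0] = w := by
    intro w hw
    by_cases h0 : w 0 = 0
    · have h1 : w 1 ≠ 0 := fun h1 => hw (by ext k; fin_cases k <;> simp_all)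
      refine ⟨⟨!![w 0, -(w 1)⁻¹; w 1, 0], by simp [Matrix.det_fin_two, h1]⟩, ?_⟩
      ext k; fin_cases k <;> simp [Matrix.mulVec, dotProduct, Fin.sum_univ_two]
    · refine ⟨⟨!![w 0, 0; w 1, (w 0)⁻¹], by simp [Matrix.det_fin_two, h0]⟩, ?_⟩
      ext k; fin_cases k <;> simp [Matrix.mulVec, dotProduct, Fin.sum_univ_two]
  obtain ⟨a, ha⟩ := key v hv
  obtain ⟨b, hb⟩ := key w hw
  refine ⟨b * a⁻¹, ?_⟩
  rw [Matrix.SpecialLinearGroup.coe_mul, ← ha, Matrix.mulVec_mulVec, Matrix.mul_assoc,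
    ← Matrix.SpecialLinearGroup.coe_mul a⁻¹ a, inv_mul_cancel, Matrix.SpecialLinearGroup.coe_one,
    Matrix.mul_one, hb]

/-- An odd-order subgroup is not a complement to an involution centraliser. -/
theorem no_odd_supplement (hF : 4 ≤ Nat.card F) (τ : SL(2, F)) (hτ : orderOf τ = 2)
    (H : Subgroup SL(2, F)) (hH : Odd (Nat.card H))
    (hcov : ∀ l : SL(2, F), ∃ k ∈ H, k⁻¹ * l * τ = τ * (k⁻¹ * l)) : False := by
  set T := (τ : Matrix (Fin 2) (Fin 2) F) with hT
  have hτ1 : τ ≠ 1 := fun e => by simp [e] at hτ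
  have hτ2 : τ * τ = 1 := by
    have := pow_orderOf_eq_one τ; rwa [hτ, pow_two] at this
  have hoddH : ∀ k ∈ H, Odd (orderOf k) := fun k hk =>
    Odd.of_dvd_nat hH (Subgroup.orderOf_dvd_natCard H hk)
  -- a fixed vector
  have hne : T - 1 ≠ 0 := fun e => hτ1 (Subtype.ext (sub_eq_zero.mp e))
  obtain ⟨w, hw⟩ : ∃ w, (T - 1) *ᵥ w ≠ 0 := by
    by_contra hall
    push Not at hall
    exact hne (Matrix.toLin'.injective (LinearMap.ext fun w => by
      rw [Matrix.toLin'_apply, map_zero, LinearMap.zero_apply]; exact hall w))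
  set e := (T - 1) *ᵥ w with he
  have hTe : T *ᵥ e = e := by
    have hTT : T * T = 1 := congrArg Subtype.val hτ2
    rw [he, Matrix.mulVec_mulVec, mul_sub, hTT, mul_one, Matrix.sub_mulVec, Matrix.sub_mulVec]
    ext k
    simp only [Pi.sub_apply, CharTwo.sub_eq_add]
    ring
  have htrans : ∀ v : Fin 2 → F, v ≠ 0 → ∃ k ∈ H, (k : Matrix (Fin 2) (Fin 2) F) *ᵥ e = v := by
    intro v hv
    obtain ⟨l, hl⟩ := exists_sl_mulVec e v hw hv
    obtain ⟨k, hkH, hk⟩ := hcov l
    refine ⟨k, hkH, ?_⟩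
    have := fix_of_commute τ (k⁻¹ * l) hτ1 hτ2 hk e hw hTe
    conv_lhs => rw [← this]
    rw [Matrix.mulVec_mulVec, ← Matrix.SpecialLinearGroup.coe_mul, mul_inv_cancel_left, hl]
  have hreg : ∀ k ∈ H, ∀ k' ∈ H, (k : Matrix (Fin 2) (Fin 2) F) *ᵥ e = (k' : Matrix (Fin 2) (Fin 2) F) *ᵥ e →
      k = k' := by
    intro k hk k' hk' hkk
    refine inv_mul_eq_one.mp (eq_one_of_fixed_odd (k⁻¹ * k') e hw ?_ (hoddH _ (H.mul_mem (H.inv_mem hk) hk')))
    rw [Matrix.SpecialLinearGroup.coe_mul, ← Matrix.mulVec_mulVec, ← hkk, Matrix.mulVec_mulVec,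
      ← Matrix.SpecialLinearGroup.coe_mul, inv_mul_cancel, Matrix.SpecialLinearGroup.coe_one,
      Matrix.one_mulVec]
  obtain ⟨c, hc0, hc1⟩ : ∃ c : F, c ≠ 0 ∧ c ≠ 1 := by
    classical
    have := Fintype.ofFinite F
    rw [Nat.card_eq_fintype_card] at hF
    obtain ⟨c, -, hc⟩ := Finset.exists_mem_notMem_of_card_lt_card (s := ({0, 1} : Finset F))
      (t := Finset.univ) (lt_of_le_of_lt Finset.card_le_two (by rw [Finset.card_univ]; omega))
    simp only [Finset.mem_insert, Finset.mem_singleton, not_or] at hc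
    exact ⟨c, hc.1, hc.2⟩
  obtain ⟨k, hkH, hk⟩ := htrans (c • e) (smul_ne_zero hc0 hw)
  set K := (k : Matrix (Fin 2) (Fin 2) F) with hK
  have hkinv : ((k⁻¹ : SL(2, F)) : Matrix (Fin 2) (Fin 2) F) *ᵥ e = c⁻¹ • e := by
    have h1 : ((k⁻¹ : SL(2, F)) : Matrix (Fin 2) (Fin 2) F) *ᵥ (K *ᵥ e) = e := by
      rw [Matrix.mulVec_mulVec, hK, ← Matrix.SpecialLinearGroup.coe_mul, inv_mul_cancel,
        Matrix.SpecialLinearGroup.coe_one, Matrix.one_mulVec]
    rw [hk, Matrix.mulVec_smul] at h1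
    exact (eq_inv_smul_iff₀ hc0).mpr h1
  obtain ⟨w', hw', hkw⟩ : ∃ w' : Fin 2 → F, w' ≠ 0 ∧ K *ᵥ w' = c⁻¹ • w' := by
    have hd : (K - c • 1).det = 0 := Matrix.exists_mulVec_eq_zero_iff.1 ⟨e, hw, by
      rw [Matrix.sub_mulVec, hk, Matrix.smul_mulVec, Matrix.one_mulVec, sub_self]⟩
    have hd1 : K.det = 1 := k.2
    have hd' : (K - c⁻¹ • 1).det = 0 := by
      rw [Matrix.det_fin_two] at hd hd1 ⊢
      simp only [Matrix.sub_apply, Matrix.smul_apply, Matrix.one_apply_eq, Matrix.one_apply_ne,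
        smul_eq_mul, mul_one, mul_zero, sub_zero, ne_eq, Fin.zero_eq_one_iff, Fin.one_eq_zero_iff,
        OfNat.ofNat_ne_one, not_false_eq_true] at hd ⊢
      field_simp
      linear_combination hd + (c ^ 2 - 1) * hd1
    obtain ⟨w', hw', hz⟩ := Matrix.exists_mulVec_eq_zero_iff.2 hd'
    rw [Matrix.sub_mulVec, Matrix.smul_mulVec, Matrix.one_mulVec, sub_eq_zero] at hz
    exact ⟨w', hw', hz⟩
  obtain ⟨g, hgH, hg⟩ := htrans w' hw'
  have hconj : g⁻¹ * k * g = k⁻¹ := by
    refine hreg _ (H.mul_mem (H.mul_mem (H.inv_mem hgH) hkH) hgH) _ (H.inv_mem hkH) ?_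
    rw [hkinv, Matrix.SpecialLinearGroup.coe_mul, Matrix.SpecialLinearGroup.coe_mul,
      ← Matrix.mulVec_mulVec, hg, ← Matrix.mulVec_mulVec, hkw, Matrix.mulVec_smul, ← hg,
      Matrix.mulVec_mulVec, ← Matrix.SpecialLinearGroup.coe_mul, inv_mul_cancel,
      Matrix.SpecialLinearGroup.coe_one, Matrix.one_mulVec]
  -- `g` has odd order, so it centralises `k`
  have h2 : Commute k (g ^ 2) := by
    have e1 : k * g = g * k⁻¹ := by rw [← hconj]; group
    have e2 : k⁻¹ * g = g * k := by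
      have : (g⁻¹ * k * g)⁻¹ = k⁻¹⁻¹ := by rw [hconj]
      rw [inv_inv] at this
      calc k⁻¹ * g = g * (g⁻¹ * k * g)⁻¹ := by group
        _ = g * k := by rw [this]
    show k * g ^ 2 = g ^ 2 * k
    rw [pow_two, ← mul_assoc, e1, mul_assoc g k⁻¹ g, e2, mul_assoc g g k]
  obtain ⟨m, hm⟩ := hoddH g hgH
  have hg' : g = (g ^ 2) ^ (m + 1) := by
    rw [← pow_mul, show 2 * (m + 1) = orderOf g + 1 by omega, pow_succ, pow_orderOf_eq_one, one_mul]
  have h3 : Commute k g := by rw [hg']; exact h2.pow_right _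
  have h4 : k * k = 1 := by
    rw [mul_assoc, h3.eq, ← mul_assoc, inv_mul_cancel, one_mul] at hconj
    exact mul_eq_one_iff_eq_inv.mpr hconj
  have h5 : k = 1 := by
    have hdiv := orderOf_dvd_of_pow_eq_one (show k ^ 2 = 1 by rw [pow_two, h4])
    exact orderOf_eq_one_iff.mp
      (Nat.eq_one_of_dvd_coprimes (Nat.coprime_two_right.mpr (hoddH k hkH)) dvd_rfl hdiv)
  rw [hK, h5, Matrix.SpecialLinearGroup.coe_one, Matrix.one_mulVec] at hk
  have : (c - 1) • e = 0 := by rw [sub_smul, one_smul, ← hk, sub_self]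
  rcases smul_eq_zero.mp this with h | h
  · exact hc1 (sub_eq_zero.mp h)
  · exact hw h

open scoped commutatorElement in
/-- A central extension of `SL(2, q)` by a group of odd order splits. -/
theorem split_odd {Γ : Type*} [Group Γ] [Finite Γ] (hF : 4 ≤ Nat.card F) (f : Γ →* SL(2, F))
    (hf : Function.Surjective f) (hker : f.ker ≤ Subgroup.center Γ) (hodd : Odd (Nat.card f.ker)) :
    Nonempty (Γ ≃* SL(2, F) × f.ker) := by
  classical
  have := Fintype.ofFinite F
  have hdisj : ∀ z ∈ f.ker, z ∈ commutator Γ → z = 1 := by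
    intro z hz hzc
    by_contra hne
    obtain ⟨r, hr, hrd⟩ := Nat.exists_prime_and_dvd (n := orderOf z) (by rwa [Ne, orderOf_eq_one_iff])
    haveI := Fact.mk hr
    haveI : Fact (Nat.Prime 2) := ⟨Nat.prime_two⟩
    have hr2 : r ≠ 2 := by
      rintro rfl
      exact Nat.not_even_iff_odd.mpr hodd
        (even_iff_two_dvd.mpr (hrd.trans (Subgroup.orderOf_dvd_natCard _ hz)))
    set y := z ^ (orderOf z / r) with hy
    have hyo : orderOf y = r := orderOf_pow_orderOf_div (orderOf_pos z).ne' hrd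
    have hyp : IsPGroup r (Subgroup.zpowers y) :=
      IsPGroup.of_card (n := 1) (by rw [Nat.card_zpowers, hyo, pow_one])
    obtain ⟨P, hP⟩ := hyp.exists_le_sylow
    have hyP : y ∈ (P : Subgroup Γ) := hP (Subgroup.mem_zpowers y)
    have hm := SchurMult.mem_commutator_sylow P hyP (hker (pow_mem hz _)) (pow_mem hzc _)
    haveI := SchurMult.SLTwo.isCyclic_odd (p := 2) hr2 hr2 ((P : Subgroup Γ).map f) (P.2.map f)
    have hcomm : ∀ a b : (P : Subgroup Γ), a * b = b * a :=
      commutative_of_cyclic_center_quotient (f.subgroupMap (P : Subgroup Γ)) fun a ha => by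
        have h1 : (a : Γ) ∈ f.ker := congrArg Subtype.val ha
        exact Subgroup.mem_center_iff.2 fun g => Subtype.ext (Subgroup.mem_center_iff.1 (hker h1) g)
    have hbot : commutator (P : Subgroup Γ) ≤ ⊥ := by
      rw [_root_.commutator_def, Subgroup.commutator_le]
      intro a _ b _
      rw [Subgroup.mem_bot, commutatorElement_eq_one_iff_mul_comm]
      exact hcomm a b
    have h1 : y = 1 := congrArg Subtype.val (Subgroup.mem_bot.1 (hbot hm))
    rw [h1, orderOf_one] at hyo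
    exact hr.ne_one hyo.symm
  let D := commutator Γ
  have hmap : D.map f = ⊤ := by
    show (commutator Γ).map f = ⊤
    rw [_root_.commutator_def, Subgroup.map_commutator, Subgroup.map_top_of_surjective f hf,
      ← _root_.commutator_def]
    exact SchurAlt.sl_perfect (by rwa [← Nat.card_eq_fintype_card])
  have hbij : Function.Bijective (f.comp D.subtype) := by
    constructor
    · intro a b hab
      have h0 : (a : Γ)⁻¹ * b ∈ f.ker := by
        rw [MonoidHom.mem_ker, map_mul, map_inv]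
        exact inv_mul_eq_one.mpr hab
      exact Subtype.ext (inv_mul_eq_one.mp (hdisj _ h0 (D.mul_mem (D.inv_mem a.2) b.2)))
    · intro l
      obtain ⟨d, hd, hdl⟩ := (hmap.ge : ⊤ ≤ _) (Subgroup.mem_top l)
      exact ⟨⟨d, hd⟩, hdl⟩
  let s : SL(2, F) →* Γ := D.subtype.comp (MulEquiv.ofBijective _ hbij).symm.toMonoidHom
  have hs : ∀ l, f (s l) = l := fun l => (MulEquiv.ofBijective _ hbij).apply_symm_apply l
  let ψ : SL(2, F) × f.ker →* Γ := MonoidHom.noncommCoprod s f.ker.subtype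
    fun l z => Subgroup.mem_center_iff.1 (hker z.2) (s l)
  refine ⟨(MulEquiv.ofBijective ψ ⟨?_, ?_⟩).symm⟩
  · rintro ⟨l, z⟩ ⟨l', z'⟩ h
    replace h : s l * (z : Γ) = s l' * (z' : Γ) := h
    have hl : l = l' := by
      have := congrArg f h
      rwa [map_mul, map_mul, hs, hs, MonoidHom.mem_ker.1 z.2, MonoidHom.mem_ker.1 z'.2, mul_one,
        mul_one] at this
    subst hl
    exact Prod.ext rfl (Subtype.ext (mul_left_cancel h))
  · intro g
    refine ⟨(f g, ⟨(s (f g))⁻¹ * g, ?_⟩), mul_inv_cancel_left _ _⟩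
    rw [MonoidHom.mem_ker, map_mul, map_inv, hs, inv_mul_cancel]

end Cfsg.Agent.Lib.AbelianInvCent
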