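import Cfsg.Agent.Lib.AbelianInvCent.Char
import Cfsg.Agent.Lib.AbelianInvCent.SLTwo
import Cfsg.Agent.S1230

/-!
Classification of the groups with abelian involution centralisers.
-/

set_option autoImplicit false

namespace Cfsg.Agent.Lib.AbelianInvCent

open Subgroup Cfsg.Agent.Lib.Involution
open scoped MatrixGroups

universe u

/-- `G` is the product of some `SL(2, q)`, `q` even, and an abelian group of odd order. -/
def Concl (G : Type u) [Group G] : Prop :=
  ∃ (F : Type) (_ : Field F) (_ : Fintype F) (K : Type) (_ : CommGroup K) (_ : Finite K),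
    CharP F 2 ∧ Odd (Nat.card K) ∧ 4 ≤ Nat.card F ∧
      Nonempty (G ≃* Matrix.SpecialLinearGroup (Fin 2) F × K)

variable {G : Type u} [Group G]

lemma eq_one_of_two_power_of_odd {x : G} {k m : ℕ} (h2 : x ^ 2 ^ k = 1) (hm : Odd m)
    (h : x ^ m = 1) : x = 1 := by
  have h3 : x ^ Nat.gcd (2 ^ k) m = 1 := pow_gcd_eq_one.2 ⟨h2, h⟩
  rwa [show Nat.gcd (2 ^ k) m = 1 from Nat.Coprime.pow_left _ (Nat.coprime_two_left.mpr hm),
    pow_one] at h3

variable [Finite G] {S : Sylow 2 G}

lemma four_le_card (h : AbCent S) : 4 ≤ Nat.card (S : Subgroup G) := by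
  haveI : Fact (Nat.Prime 2) := ⟨Nat.prime_two⟩
  obtain ⟨k, hk⟩ := S.isPGroup'.exists_card_eq
  rw [hk]
  rcases k with _ | _ | k
  · refine absurd ?_ h.S_ne_bot
    exact eq_bot_of_card_eq _ (by simpa using hk)
  · exact absurd (isCyclic_of_prime_card (p := 2) (by simpa using hk)) h.nc
  · calc 4 = 2 ^ 2 := rfl
      _ ≤ 2 ^ (k + 2) := Nat.pow_le_pow_right two_pos (by omega)

/-- A centraliser of a nontrivial element of `A` leaves `N` only for central elements. -/
theorem dichotomy (h : AbCent S)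
    (IH : ∀ (M : Type u) [Group M] [Finite M] (T : Sylow 2 M), Nat.card M < Nat.card G →
      AbCent T → Concl M)
    {b : G} (hb : b ∈ centralizer ((S : Subgroup G) : Set G))
    (hM : ¬ centralizer ({b} : Set G) ≤ normalizer ((S : Subgroup G) : Set G)) : b ∈ center G := by
  by_contra hbc
  set M := centralizer ({b} : Set G) with hMdef
  have hAM : centralizer ((S : Subgroup G) : Set G) ≤ M := fun a ha =>
    mem_centralizer_singleton_iff.mpr (h.commA ha hb)
  have hSM : (S : Subgroup G) ≤ M := h.S_le_A.trans hAM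
  have hMtop : M ≠ ⊤ := fun e => hbc (mem_center_iff.mpr fun g =>
    mem_centralizer_singleton_iff.mp (e ▸ mem_top g : g ∈ M))
  have hlt : Nat.card M < Nat.card G := by
    by_contra hc
    exact hMtop (eq_top_of_le_card _ (not_lt.mp hc))
  haveI : Fact (Nat.Prime 2) := ⟨Nat.prime_two⟩
  have hT : AbCent (S.subtype hSM) := by
    have e : (S : Subgroup G).subgroupOf M ≃* (S : Subgroup G) := subgroupOfEquivOfLe hSM
    refine ⟨fun hc => h.nc ?_, fun hn => hM fun m hm => ?_, fun s hs => ⟨⟨fun a c => ?_⟩⟩⟩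
    · have : IsCyclic ↥((S : Subgroup G).subgroupOf M) := hc
      exact isCyclic_of_surjective e.toMonoidHom e.surjective
    · have hn' : ((S : Subgroup G).subgroupOf M).Normal := hn
      rw [mem_normalizer_iff]
      intro x
      constructor
      · intro hx
        exact mem_subgroupOf.mp (hn'.conj_mem ⟨x, hSM hx⟩ (mem_subgroupOf.mpr hx) ⟨m, hm⟩)
      · intro hx
        have h2 := mem_subgroupOf.mp (hn'.conj_mem ⟨_, hSM hx⟩ (mem_subgroupOf.mpr hx) ⟨m, hm⟩⁻¹)
        simpa [mul_assoc] using h2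
    · have hs' : orderOf (s : G) = 2 := by rw [orderOf_coe]; exact hs
      have hm : ∀ a : centralizer ({s} : Set M), ((a : M) : G) ∈ centralizer ({(s : G)} : Set G) :=
        fun a => mem_centralizer_singleton_iff.mpr
          (congrArg Subtype.val (mem_centralizer_singleton_iff.mp a.2))
      exact Subtype.ext (Subtype.ext (h.commC hs' (hm a) (hm c)))
  obtain ⟨F, _, _, K, _, _, hF2, hK, hF4, ⟨e⟩⟩ := IH M (S.subtype hSM) hlt hT
  obtain ⟨t, htS, ht⟩ := h.exists_t0
  let t' : M := ⟨t, hSM htS⟩
  have ht' : orderOf t' = 2 := by rw [← orderOf_coe]; exact ht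
  -- conjugacy of involutions inside `M`
  have hMconj : ∀ s : G, orderOf s = 2 → s ∈ M → ∃ m ∈ M, m * t * m⁻¹ = s := by
    intro s hs hsM
    obtain ⟨m, hm⟩ := isConj_iff.mp (hT.all_conj ht' (b := ⟨s, hsM⟩) (by rw [← orderOf_coe]; exact hs))
    exact ⟨m, m.2, congrArg Subtype.val hm⟩
  have hmove : ∀ g : G, ∀ s ∈ M, orderOf s = 2 → g * s * g⁻¹ ∈ M → g ∈ M := by
    intro g s hsM hs hg
    obtain ⟨m, hmM, hm⟩ := hMconj s hs hsM
    obtain ⟨m', hm'M, hm'⟩ := hMconj _ ((orderOf_conj g s).trans hs) hg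
    have hA : m'⁻¹ * g * m ∈ centralizer ((S : Subgroup G) : Set G) := by
      refine h.mem_A_of_stab ht htS ?_
      calc m'⁻¹ * g * m * t * (m'⁻¹ * g * m)⁻¹ = m'⁻¹ * (g * (m * t * m⁻¹) * g⁻¹) * m' := by group
        _ = t := by rw [hm, ← hm']; group
    have := M.mul_mem (M.mul_mem hm'M (hAM hA)) (M.inv_mem hmM)
    simpa [mul_assoc] using this
  obtain ⟨u, hu, huM⟩ : ∃ u : G, orderOf u = 2 ∧ u ∉ M := by
    by_contra hall
    push Not at hall
    refine hMtop (top_le_iff.mp fun g _ => hmove g t (hSM htS) ht ?_)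
    exact hall _ ((orderOf_conj g t).trans ht)
  have hNM : normalizer ((S : Subgroup G) : Set G) ≤ M := fun g hg =>
    hmove g t (hSM htS) ht (hSM (conj_S hg htS))
  let H : Subgroup G := M ⊓ M.comap (MulAut.conj u).toMonoidHom
  have hHodd : Odd (Nat.card H) := by
    rw [← Nat.not_even_iff_odd]
    intro hev
    obtain ⟨s, hs⟩ := exists_involution_of_even hev
    exact huM (hmove u (s : G) s.2.1 (by rw [orderOf_coe]; exact hs) s.2.2)
  -- the projection onto `SL(2, F)`
  haveI := hF2
  let f : M →* SL(2, F) := (MonoidHom.fst _ _).comp e.toMonoidHom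
  let τ := f t'
  have hτ : orderOf τ = 2 := by
    have h2 : t' * t' = 1 := Subtype.ext (mul_self ht)
    refine orderOf_two_of (by rw [← map_mul, h2, map_one]) fun h1 => ne_one ht' (e.injective ?_)
    rw [map_one]
    refine Prod.ext h1 ?_
    have h3 : (e t').2 * (e t').2 = 1 := by
      rw [← Prod.snd_mul, ← map_mul, h2, map_one]; rfl
    exact eq_one_of_mul_self_of_odd (odd_orderOf_of_odd_card hK _) h3
  refine no_odd_supplement hF4 τ hτ ((H.subgroupOf M).map f) ?_ ?_
  · refine Odd.of_dvd_nat hHodd ((card_map_dvd _ _).trans ?_)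
    rw [Nat.card_congr (subgroupOfEquivOfLe (inf_le_left : H ≤ M)).toEquiv]
  · intro l
    obtain ⟨x, hx⟩ : ∃ x : M, f x = l := ⟨e.symm (l, 1), by simp [f]⟩
    have huxN : u * (x : G) ∉ normalizer ((S : Subgroup G) : Set G) := fun hh =>
      huM (by simpa using M.mul_mem (hNM hh) (M.inv_mem x.2))
    obtain ⟨v, hv, -, hvA⟩ := h.coset_involution huxN
    set c := (u * (x : G))⁻¹ * v with hc
    let k : M := x * ⟨c, hAM hvA⟩
    have hvk : v = u * (k : G) := by simp [k, hc, mul_assoc]
    have huk : u * (k : G) * u⁻¹ = (k : G)⁻¹ := by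
      have h2 := mul_self hv
      rw [hvk] at h2
      rw [inv_self hu]
      exact eq_inv_of_mul_eq_one_left (by rw [← h2]; simp only [mul_assoc])
    have hkH : (k : G) ∈ H := ⟨k.2, by
      show u * (k : G) * u⁻¹ ∈ M
      rw [huk]; exact M.inv_mem k.2⟩
    refine ⟨f k, ⟨k, mem_subgroupOf.mpr hkH, rfl⟩, ?_⟩
    rw [← hx, ← map_inv, ← map_mul, ← map_mul, ← map_mul]
    congr 1
    refine Subtype.ext ?_
    show (k : G)⁻¹ * x * t = t * ((k : G)⁻¹ * x)
    have : (k : G)⁻¹ * x = c⁻¹ := by simp [k, mul_assoc]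
    rw [this]
    exact h.commA ((centralizer ((S : Subgroup G) : Set G)).inv_mem hvA) (h.S_le_A htS)

lemma exists_type_zero (K : Type u) [Group K] [Finite K] (hc : ∀ a b : K, a * b = b * a) :
    ∃ (K0 : Type) (_ : CommGroup K0) (_ : Finite K0), Nonempty (K ≃* K0) := by
  letI : CommGroup K := { (inferInstance : Group K) with mul_comm := hc }
  haveI : Small.{0} K := small_of_injective (Finite.equivFin K).injective
  haveI : Finite (Shrink.{0} K) := Finite.of_equiv K (equivShrink K)
  exact ⟨Shrink.{0} K, inferInstance, inferInstance, ⟨(Shrink.mulEquiv).symm⟩⟩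

lemma center_quotient (h : AbCent S) (hc : center G ≠ ⊥)
    (IH : ∀ (M : Type u) [Group M] [Finite M] (T : Sylow 2 M), Nat.card M < Nat.card G →
      AbCent T → Concl M) : Concl G := by
  classical
  haveI : Fact (Nat.Prime 2) := ⟨Nat.prime_two⟩
  have hZodd : Odd (Nat.card (center G)) := by
    rw [← Nat.not_even_iff_odd]
    intro hev
    obtain ⟨z, hz⟩ := exists_involution_of_even hev
    have hz2 : orderOf (z : G) = 2 := by rw [orderOf_coe]; exact hz
    have hall : ∀ a : G, a ∈ centralizer ({(z : G)} : Set G) := fun a =>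
      mem_centralizer_singleton_iff.mpr (mem_center_iff.mp z.2 a)
    exact h.nn ⟨fun a ha g => by
      rw [h.commC hz2 (hall g) (hall a), mul_inv_cancel_right]; exact ha⟩
  have hzpow : ∀ z ∈ center G, z ^ Nat.card (center G) = 1 := fun z hz =>
    congrArg Subtype.val (pow_card_eq_one' (x := (⟨z, hz⟩ : center G)))
  obtain ⟨k, hk⟩ := S.isPGroup'.exists_card_eq
  have hSpow : ∀ x ∈ (S : Subgroup G), x ^ 2 ^ k = 1 := fun x hx =>
    hk ▸ congrArg Subtype.val (pow_card_eq_one' (x := (⟨x, hx⟩ : (S : Subgroup G))))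
  have hsplit : ∀ {x z : G}, z ∈ center G → x ^ 2 ^ k = 1 → (x * z) ^ 2 ^ k = 1 → z = 1 := by
    intro x z hz h1 h2
    rw [(show Commute x z from mem_center_iff.mp hz x).mul_pow, h1, one_mul] at h2
    exact eq_one_of_two_power_of_odd h2 hZodd (hzpow z hz)
  set π := QuotientGroup.mk' (center G) with hπ
  have hπs : Function.Surjective π := QuotientGroup.mk'_surjective _
  have hker : ∀ x, π x = 1 → x ∈ center G := fun x hx => (QuotientGroup.eq_one_iff x).mp hx
  set T := S.mapSurjective hπs with hT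
  have hTS : (T : Subgroup (G ⧸ center G)) = (S : Subgroup G).map π := rfl
  have hAb : AbCent T := by
    refine ⟨fun hcy => h.nc ?_, fun hn => h.nn ⟨fun x hx g => ?_⟩, fun tq htq => ⟨⟨fun a c => ?_⟩⟩⟩
    · have hinj : Function.Injective (π.subgroupMap (S : Subgroup G)) := by
        rw [injective_iff_map_eq_one]
        intro x hx
        have hxz := hker _ (congrArg Subtype.val hx)
        exact Subtype.ext (eq_one_of_two_power_of_odd (hSpow x x.2) hZodd (hzpow _ hxz))
      have e := MulEquiv.ofBijective _ ⟨hinj, π.subgroupMap_surjective (S : Subgroup G)⟩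
      have : IsCyclic ↥((S : Subgroup G).map π) := hcy
      exact isCyclic_of_surjective e.symm.toMonoidHom e.symm.surjective
    · have h1 : π g * π x * (π g)⁻¹ ∈ (S : Subgroup G).map π := hn.conj_mem _ (mem_map_of_mem π hx) _
      obtain ⟨y, hy, hyx⟩ := h1
      have hz : y⁻¹ * (g * x * g⁻¹) ∈ center G := hker _ (by
        simp only [map_mul, map_inv, hyx, inv_mul_cancel])
      have := hsplit hz (hSpow y hy) (by
        rw [mul_inv_cancel_left, conj_pow, hSpow x hx, mul_one, mul_inv_cancel])
      rwa [← inv_mul_eq_one.mp this]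
    · obtain ⟨x, rfl⟩ := hπs tq
      set t := x ^ Nat.card (center G) with ht
      have htx : π t = π x := by
        obtain ⟨j, hj⟩ := hZodd
        rw [ht, map_pow, hj, pow_succ, pow_mul, ← htq, pow_orderOf_eq_one, one_pow, one_mul]
      have ht2 : t * t = 1 := by
        have hx2 : x ^ 2 ∈ center G := hker _ (by rw [map_pow, ← htq, pow_orderOf_eq_one])
        rw [ht, ← pow_two, ← pow_mul, mul_comm, pow_mul]
        exact hzpow _ hx2
      have hto : orderOf t = 2 := orderOf_two_of ht2 fun e => ne_one htq (by rw [← htx, e, map_one])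
      have hlift : ∀ a : centralizer ({π x} : Set (G ⧸ center G)),
          ∃ y ∈ centralizer ({t} : Set G), π y = a := by
        intro a
        obtain ⟨y, hy⟩ := hπs (a : G ⧸ center G)
        refine ⟨y, ?_, hy⟩
        have hz : t⁻¹ * (y * t * y⁻¹) ∈ center G := hker _ (by
          have e := mem_centralizer_singleton_iff.mp a.2
          simp only [map_mul, map_inv, hy, htx]
          rw [e, mul_inv_cancel_right, inv_mul_cancel])
        have h2 : (t⁻¹ * (y * t * y⁻¹)) ^ 2 = 1 := by
          have hcm := (show Commute t (t⁻¹ * (y * t * y⁻¹)) from mem_center_iff.mp hz t).mul_pow 2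
          rw [mul_inv_cancel_left, conj_pow, pow_two t, ht2, one_mul, mul_one, mul_inv_cancel] at hcm
          exact hcm.symm
        have h3 := eq_one_of_two_power_of_odd (k := 1) (by rwa [pow_one]) hZodd (hzpow _ hz)
        rw [mem_centralizer_singleton_iff]
        exact mul_inv_eq_iff_eq_mul.mp (inv_mul_eq_one.mp h3).symm
      obtain ⟨y, hy, hya⟩ := hlift a
      obtain ⟨y', hy', hyc⟩ := hlift c
      refine Subtype.ext ?_
      show (a : G ⧸ center G) * c = c * a
      rw [← hya, ← hyc, ← map_mul, ← map_mul, h.commC hto hy hy']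
  have hlt : Nat.card (G ⧸ center G) < Nat.card G := by
    rw [← Subgroup.index_eq_card, ← (center G).card_mul_index]
    exact lt_mul_of_one_lt_left (Nat.pos_of_ne_zero Subgroup.FiniteIndex.index_ne_zero)
      (by rwa [one_lt_card_iff_ne_bot])
  obtain ⟨F, _, _, K, _, _, hF2, hK, hF4, ⟨e⟩⟩ := IH (G ⧸ center G) T hlt hAb
  haveI := hF2
  -- the abelian factor is trivial
  have htriv : ∀ a : K, a = 1 := by
    intro a
    obtain ⟨g, hg⟩ := hπs (e.symm (1, a))
    have hcom : ∀ y : G, (g * y * g⁻¹ * y⁻¹) ∈ center G := by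
      intro y
      refine hker _ (e.injective ?_)
      simp only [map_mul, map_inv, map_one, hg, MulEquiv.apply_symm_apply]
      generalize e (π y) = p
      exact Prod.ext (by simp) (by simp [mul_comm a])
    have hgA : g ∈ centralizer ((S : Subgroup G) : Set G) := by
      rw [mem_centralizer_iff]
      intro s hs
      have hz : s⁻¹ * (g * s * g⁻¹) ∈ center G := by
        have hzc := hcom s
        have h1 : s⁻¹ * (g * s * g⁻¹) = g * s * g⁻¹ * s⁻¹ := by
          calc s⁻¹ * (g * s * g⁻¹) = s⁻¹ * ((g * s * g⁻¹ * s⁻¹) * s) := by group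
            _ = g * s * g⁻¹ * s⁻¹ := by rw [← mem_center_iff.mp hzc s, inv_mul_cancel_left]
        rwa [h1]
      have := hsplit hz (hSpow s hs) (by
        rw [mul_inv_cancel_left, conj_pow, hSpow s hs, mul_one, mul_inv_cancel])
      have h3 := inv_mul_eq_one.mp this
      exact (mul_inv_eq_iff_eq_mul.mp h3.symm).symm
    have hgc : g ∈ center G := by
      refine dichotomy h IH hgA fun hle => ?_
      obtain ⟨v, hv, hvN⟩ := h.exists_outside
      refine hvN (hle (mem_centralizer_singleton_iff.mpr ?_))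
      have hzc := hcom v
      have h2 : (g * v * g⁻¹ * v⁻¹) ^ 2 = 1 := by
        have hcm := (show Commute (g * v * g⁻¹ * v⁻¹) v from (mem_center_iff.mp hzc v).symm).mul_pow 2
        rw [inv_mul_cancel_right, conj_pow, pow_two v, mul_self hv, mul_one, mul_one, mul_inv_cancel] at hcm
        exact hcm.symm
      have h3 := eq_one_of_two_power_of_odd (k := 1) (by rwa [pow_one]) hZodd (hzpow _ hzc)
      exact (mul_inv_eq_iff_eq_mul.mp (mul_inv_eq_one.mp h3)).symm
    have h1 : π g = 1 := (QuotientGroup.eq_one_iff g).mpr hgc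
    rw [hg] at h1
    have h2 := congrArg e h1
    rw [MulEquiv.apply_symm_apply, map_one] at h2
    exact congrArg Prod.snd h2
  let f : G →* SL(2, F) := (MonoidHom.fst _ _).comp (e.toMonoidHom.comp π)
  have hfs : Function.Surjective f := fun l => by
    obtain ⟨g, hg⟩ := hπs (e.symm (l, 1))
    exact ⟨g, by simp [f, hg]⟩
  have hfker : f.ker ≤ center G := fun g hg => hker g (e.injective (by
    rw [map_one]
    exact Prod.ext hg (htriv _)))
  have hfodd : Odd (Nat.card f.ker) := Odd.of_dvd_nat hZodd (card_dvd_of_le hfker)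
  obtain ⟨ψ⟩ := split_odd hF4 f hfs hfker hfodd
  obtain ⟨K0, _, _, ⟨φ⟩⟩ := exists_type_zero f.ker fun a b =>
    Subtype.ext (mem_center_iff.mp (hfker b.2) a)
  exact ⟨F, inferInstance, inferInstance, K0, inferInstance, inferInstance, hF2,
    by rwa [← Nat.card_congr φ.toEquiv], hF4, ⟨ψ.trans ((MulEquiv.refl _).prodCongr φ)⟩⟩

lemma centerless (h : AbCent S) (hc : center G = ⊥)
    (IH : ∀ (M : Type u) [Group M] [Finite M] (T : Sylow 2 M), Nat.card M < Nat.card G →
      AbCent T → Concl M) : Concl G := by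
  have hloc : ∀ b ∈ centralizer ((S : Subgroup G) : Set G), b ≠ 1 →
      centralizer ({b} : Set G) ≤ normalizer ((S : Subgroup G) : Set G) := by
    intro b hb hb1
    by_contra hle
    have := dichotomy h IH hb hle
    rw [hc, mem_bot] at this
    exact hb1 this
  obtain ⟨F, _, _, hFcard, ⟨e⟩⟩ := S1230.result S h.nc h.nn fun t ht => ⟨h.hC t ht, fun c hcC => by
    obtain ⟨g, hg⟩ := h.exists_move ht
    have h1 : g * c * g⁻¹ ∈ centralizer ((S : Subgroup G) : Set G) := by
      rw [← h.cent_eq ((orderOf_conj g t).trans ht) hg]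
      exact conj_mem_centralizer hcC
    have h2 := h.sq_eq_one hloc h1
    rw [← pow_two, conj_pow, conj_eq_one_iff] at h2
    exact h2⟩
  haveI : Fact (Nat.Prime 2) := ⟨Nat.prime_two⟩
  obtain ⟨k, hk⟩ := S.isPGroup'.exists_card_eq
  have h4 := four_le_card h
  have hk0 : k ≠ 0 := fun e0 => by rw [e0, pow_zero] at hk; omega
  have hchar : ringChar F = 2 := FiniteField.even_card_iff_char_two.mpr (by
    rw [hFcard, hk, ← Nat.even_iff]; exact Nat.even_pow.mpr ⟨even_two, hk0⟩)
  haveI : CharP F 2 := ringChar.of_eq hchar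
  have e2 : Matrix.ProjectiveSpecialLinearGroup (Fin 2) F ≃* Matrix.SpecialLinearGroup (Fin 2) F :=
    (QuotientGroup.quotientMulEquivOfEq Recog.sl2_center_eq_bot).trans QuotientGroup.quotientBot
  exact ⟨F, inferInstance, inferInstance, PUnit, inferInstance, inferInstance, inferInstance,
    by simp, by rw [Nat.card_eq_fintype_card, hFcard]; exact h4,
    ⟨(e.trans e2).trans MulEquiv.prodUnique.symm⟩⟩

theorem main (G : Type u) [Group G] [Finite G] (S : Sylow 2 G) (h : AbCent S) : Concl G := by
  suffices key : ∀ n : ℕ, ∀ (G : Type u) [Group G] [Finite G] (S : Sylow 2 G), Nat.card G = n →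
      AbCent S → Concl G from key _ G S rfl h
  intro n
  induction n using Nat.strong_induction_on with
  | _ n ih =>
  intro G _ _ S hn h
  have IH : ∀ (M : Type u) [Group M] [Finite M] (T : Sylow 2 M), Nat.card M < Nat.card G →
      AbCent T → Concl M := fun M _ _ T hlt hT => ih _ (hn ▸ hlt) M T rfl hT
  by_cases hc : center G = ⊥
  · exact centerless h hc IH
  · exact center_quotient h hc IH

end Cfsg.Agent.Lib.AbelianInvCent
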